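import Cfsg.Agent.Lib.H83.Gallagher

/-!
# Averaging a character over a normal abelian subgroup
-/

set_option autoImplicit false
set_option linter.unusedSectionVars false
set_option linter.style.haveILetI false

namespace H19.AbTI

open Cfsg H18.CharBasic H18.CharOrtho H18.CharInd H18.CharQuot
open scoped ComplexConjugate

universe u

variable {X : Type u} [Group X] [Fintype X] (A : Subgroup X) [Fintype A]

/-- average over the cosets of `A` -/
noncomputable def av (f : X → ℂ) : X → ℂ := fun g => (Nat.card A : ℂ)⁻¹ * ∑ k : A, f (g * k)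

theorem card_ne : (Nat.card A : ℂ) ≠ 0 := by exact_mod_cast (Nat.card_pos (α := A)).ne'

theorem inner_av (f g : X → ℂ) : classInner (av A f) g = classInner f (av A g) := by
  classical
  simp only [classInner, av]
  congr 1
  have h1 : ∀ x : X, (Nat.card A : ℂ)⁻¹ * (∑ k : A, f (x * k)) * conj (g x) =
      (Nat.card A : ℂ)⁻¹ * ∑ k : A, f (x * k) * conj (g x) := by
    intro x
    rw [mul_assoc, Finset.sum_mul]
  have h2 : ∀ x : X, f x * conj ((Nat.card A : ℂ)⁻¹ * ∑ k : A, g (x * k)) =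
      (Nat.card A : ℂ)⁻¹ * ∑ k : A, f x * conj (g (x * k)) := by
    intro x
    rw [map_mul, map_inv₀, Complex.conj_natCast, map_sum, ← Finset.mul_sum]
    ring
  rw [Finset.sum_congr rfl (fun x _ => h1 x), Finset.sum_congr rfl (fun x _ => h2 x),
    ← Finset.mul_sum, ← Finset.mul_sum]
  congr 1
  rw [Finset.sum_comm, Finset.sum_comm (f := fun x (k : A) => f x * conj (g (x * k)))]
  rw [← Equiv.sum_comp (Equiv.inv A)]
  apply Finset.sum_congr rfl
  intro k _
  rw [← Equiv.sum_comp (Equiv.mulRight (k : X))]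
  apply Finset.sum_congr rfl
  intro x _
  simp

theorem av_mul (f : X → ℂ) (g : X) (k : A) : av A f (g * k) = av A f g := by
  simp only [av]
  congr 1
  rw [← Equiv.sum_comp (Equiv.mulLeft k⁻¹)]
  apply Finset.sum_congr rfl
  intro l _
  congr 1
  simp [mul_assoc]

theorem av_av (f : X → ℂ) : av A (av A f) = av A f := by
  funext g
  have h1 : av A (av A f) g = (Nat.card A : ℂ)⁻¹ * ∑ k : A, av A f (g * k) := rfl
  rw [h1, Finset.sum_congr rfl (fun k _ => av_mul A f g k), Finset.sum_const, Finset.card_univ,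
    ← Nat.card_eq_fintype_card, nsmul_eq_mul, inv_mul_cancel_left₀ (card_ne A)]

theorem norm_decomp (f : X → ℂ) :
    classInner f f = classInner (av A f) (av A f) + classInner (f - av A f) (f - av A f) := by
  have h1 : classInner (f - av A f) (av A f) = 0 := by
    rw [H18.CharOrtho.inner_sub_left, ← inner_av, ← inner_av, av_av, sub_self]
  have h2 : classInner (av A f) (f - av A f) = 0 := by
    rw [← H18.CharOrtho.inner_conj_symm, h1, map_zero]
  have h3 : f = av A f + (f - av A f) := by rw [add_sub_cancel]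
  conv_lhs => rw [h3]
  rw [H18.CharOrtho.inner_add_left, H18.CharOrtho.inner_add_right,
    H18.CharOrtho.inner_add_right, h1, h2]
  ring

theorem av_irr [hA : A.Normal] {φ : X → ℂ} (hφ : IsIrrCharacter X φ) :
    (∀ h ∈ A, φ h = φ 1) ∨ av A φ = 0 := by
  classical
  obtain ⟨n, ρ, hρ, rfl⟩ := hφ
  let T : Module.End ℂ (Fin n → ℂ) := ∑ k : A, ρ (k : X)
  have hcomm : ∀ g : X, T * ρ g = ρ g * T := by
    intro g
    simp only [T]
    rw [Finset.sum_mul, Finset.mul_sum]
    refine Fintype.sum_equiv (MulAut.conjNormal g⁻¹ : A ≃* A).toEquiv _ _ ?_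
    intro k
    have h1 : (((MulAut.conjNormal g⁻¹ : A ≃* A).toEquiv k : A) : X) = g⁻¹ * k * g := by
      have := MulAut.conjNormal_apply (g⁻¹ : X) k
      rw [inv_inv] at this
      exact this
    rw [h1, ← map_mul, ← map_mul]
    congr 1
    group
  obtain ⟨c, hc⟩ := H83.Schur.scalar_of_commute ρ hρ T hcomm
  by_cases hc0 : c = 0
  · right
    funext g
    simp only [av, Pi.zero_apply]
    have h1 : ∑ k : A, ρ.character (g * k) = LinearMap.trace ℂ _ (ρ g * T) := by
      simp only [T, Finset.mul_sum, map_sum, Representation.character, map_mul]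
    rw [h1, hc, hc0, zero_smul, mul_zero, map_zero, mul_zero]
  · left
    intro h hh
    have h1 : ρ h * T = T := by
      simp only [T]
      rw [Finset.mul_sum]
      refine Fintype.sum_equiv (Equiv.mulLeft (⟨h, hh⟩ : A)) _ _ ?_
      intro k
      simp
    rw [hc, mul_smul_comm, mul_one] at h1
    have h2 : ρ h = 1 := smul_right_injective _ hc0 h1
    simp only [Representation.character, h2, map_one]

/-- a character not trivial on `A` -/
theorem norm_sub_av [hA : A.Normal] {f : X → ℂ} (hf : IsCharacter X f) (hne : ∃ h ∈ A, f h ≠ f 1) :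
    1 ≤ (classInner (f - av A f) (f - av A f)).re := by
  classical
  letI := Fintype.ofFinite (IrrCharacter X)
  -- a constituent not trivial on `A`
  obtain ⟨φ, hφ, hφf, hφA⟩ : ∃ φ : X → ℂ, IsIrrCharacter X φ ∧ classInner f φ ≠ 0 ∧
      ¬ ∀ h ∈ A, φ h = φ 1 := by
    by_contra hcon
    push Not at hcon
    obtain ⟨h, hh, hfh⟩ := hne
    apply hfh
    have h1 := mem_classFun_expand (isClassFunction_of_isCharacter hf)
    rw [h1]
    simp only [Finset.sum_apply, Pi.smul_apply]
    apply Finset.sum_congr rfl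
    intro φ _
    by_cases h0 : classInner f (φ : X → ℂ) = 0
    · rw [h0, zero_smul, zero_smul]
    · rw [hcon φ φ.2 h0 h hh]
  have hav := (av_irr A hφ).resolve_left hφA
  obtain ⟨a, ha⟩ := inner_char_natCast hf (isCharacter_of_isIrr hφ)
  have ha0 : a ≠ 0 := by
    rintro rfl
    apply hφf
    rw [ha]; simp
  obtain ⟨θ, hθ⟩ : ∃ θ, θ = f - av A f := ⟨_, rfl⟩
  rw [← hθ]
  have h1 : classInner θ φ = a := by
    rw [hθ, H18.CharOrtho.inner_sub_left, inner_av, hav, H18.CharOrtho.inner_zero_right,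
      sub_zero, ha]
  have h2 : classInner φ θ = a := by
    rw [← H18.CharOrtho.inner_conj_symm, h1, Complex.conj_natCast]
  have h3 := inner_self_re_nonneg (θ - (a : ℂ) • φ)
  rw [H18.CharOrtho.inner_sub_left, H18.CharOrtho.inner_sub_right,
    H18.CharOrtho.inner_smul_left,
    H18.CharOrtho.inner_sub_right, H18.CharOrtho.inner_smul_right,
    H18.CharOrtho.inner_smul_right, h1, h2, inner_irr_self hφ, Complex.conj_natCast] at h3
  have h4 : (classInner θ θ).re - (a : ℝ) ^ 2 ≥ 0 := by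
    have : (classInner θ θ - (a : ℂ) * a - (a : ℂ) * ((a : ℂ) - (a : ℂ) * 1)).re =
        (classInner θ θ).re - (a : ℝ) ^ 2 := by
      simp [sq]
    rw [← this]
    exact h3
  have h5 : (1 : ℝ) ≤ a := by exact_mod_cast Nat.one_le_iff_ne_zero.2 ha0
  nlinarith

/-- off the elements centralizing something, averaging does nothing -/
theorem av_eq [hA : A.Normal] {f : X → ℂ}
    (hf : IsClassFunction X f) {g : X} (hg : ∀ a ∈ A, a * g = g * a → a = 1) :
    av A f g = f g := by
  classical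
  let F : A → A := fun k => ⟨g⁻¹ * (k : X)⁻¹ * g * k,
    A.mul_mem (by simpa using hA.conj_mem _ (A.inv_mem k.2) g⁻¹) k.2⟩
  have hF : Function.Injective F := by
    intro k l hkl
    have h1 : g⁻¹ * (k : X)⁻¹ * g * k = g⁻¹ * (l : X)⁻¹ * g * l := congrArg Subtype.val hkl
    have h2 : (l : X) * (k : X)⁻¹ * g = g * ((l : X) * (k : X)⁻¹) := by
      have h3 : (k : X)⁻¹ * g * k = (l : X)⁻¹ * g * l := by
        have := congrArg (fun y => g * y) h1
        simpa [mul_assoc] using this
      calc (l : X) * (k : X)⁻¹ * g = l * ((k : X)⁻¹ * g * k) * (k : X)⁻¹ := by group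
        _ = l * ((l : X)⁻¹ * g * l) * (k : X)⁻¹ := by rw [h3]
        _ = g * ((l : X) * (k : X)⁻¹) := by group
    have h3 := hg _ (A.mul_mem l.2 (A.inv_mem k.2)) h2
    exact Subtype.ext (mul_inv_eq_one.1 h3).symm
  have hFb : Function.Bijective F := Finite.injective_iff_bijective.1 hF
  simp only [av]
  rw [← Equiv.sum_comp (Equiv.ofBijective F hFb)]
  have h1 : ∀ k : A, f (g * ((Equiv.ofBijective F hFb k : A) : X)) = f g := by
    intro k
    have h2 : g * ((Equiv.ofBijective F hFb k : A) : X) = (k : X)⁻¹ * g * ((k : X)⁻¹)⁻¹ := by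
      change g * (g⁻¹ * (k : X)⁻¹ * g * k) = _
      group
    rw [h2]
    exact hf _ _
  rw [Finset.sum_congr rfl (fun k _ => h1 k), Finset.sum_const, Finset.card_univ,
    ← Nat.card_eq_fintype_card, nsmul_eq_mul, inv_mul_cancel_left₀ (card_ne A)]

/-- the inequality in the normalizer -/
theorem ineq_normal [hA : A.Normal] {f : X → ℂ}
    (hf : IsCharacter X f) (hne : ∃ h ∈ A, f h ≠ f 1) (P : X → Prop) [DecidablePred P]
    (hP : ∀ g, P g ↔ ∃ a ∈ A, a ≠ 1 ∧ a * g = g * a) :
    (∑ g ∈ Finset.univ.filter P, ‖av A f g‖ ^ 2) + (Nat.card X : ℝ) ≤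
    ∑ g ∈ Finset.univ.filter P, ‖f g‖ ^ 2 := by
  have h1 := norm_decomp A f
  have h2 := norm_sub_av A hf hne
  rw [inner_self_eq_sum f, inner_self_eq_sum (av A f)] at h1
  have h3 := congrArg Complex.re h1
  rw [Complex.add_re, Complex.ofReal_re, Complex.ofReal_re] at h3
  have hpos : (0 : ℝ) < Nat.card X := by exact_mod_cast (Nat.card_pos (α := X))
  have h4 : (Nat.card X : ℝ) * ((Nat.card X : ℝ)⁻¹ * ∑ g, ‖f g‖ ^ 2) = ∑ g, ‖f g‖ ^ 2 :=
    mul_inv_cancel_left₀ hpos.ne' _
  have h5 : (Nat.card X : ℝ) * ((Nat.card X : ℝ)⁻¹ * ∑ g, ‖av A f g‖ ^ 2) =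
    ∑ g, ‖av A f g‖ ^ 2 := mul_inv_cancel_left₀ hpos.ne' _
  have h6 : ∑ g, ‖f g‖ ^ 2 ≥ ∑ g, ‖av A f g‖ ^ 2 + Nat.card X := by
    rw [← h4, ← h5, h3]
    nlinarith
  rw [← Finset.sum_filter_add_sum_filter_not Finset.univ P (fun g => ‖f g‖ ^ 2),
    ← Finset.sum_filter_add_sum_filter_not Finset.univ P (fun g => ‖av A f g‖ ^ 2)] at h6
  have h7 : ∑ g ∈ Finset.univ.filter (fun g : X => ¬ P g), ‖av A f g‖ ^ 2 =
      ∑ g ∈ Finset.univ.filter (fun g : X => ¬ P g), ‖f g‖ ^ 2 := by
    apply Finset.sum_congr rfl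
    intro g hg
    rw [Finset.mem_filter, hP] at hg
    rw [av_eq A (isClassFunction_of_isCharacter hf)]
    intro a ha hag
    by_contra ha1
    exact hg.2 ⟨a, ha, ha1, hag⟩
  linarith

end H19.AbTI
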