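import Cfsg.Agent.Lib.H19.AbTI
import Cfsg.Agent.Lib.H4.CenterIndex

/-!
# An inequality for characters of groups with a subgroup having trivially intersecting
centralizers
-/

set_option autoImplicit false
set_option linter.unusedSectionVars false
set_option linter.style.haveILetI false

namespace H19.AbTI

open Cfsg H18.CharBasic H18.CharOrtho H18.CharInd H18.CharQuot
open scoped ComplexConjugate

universe u

variable {G : Type u} [Group G] [Fintype G]

theorem mem_norm_of (H : Subgroup G)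
    (hone : ∀ g : G, g ∉ Subgroup.center G → ∀ a b : G,
      Subgroup.centralizer ({g} : Set G) ⊓ H.map (MulAut.conj a).toMonoidHom ≠ ⊥ →
      Subgroup.centralizer ({g} : Set G) ⊓ H.map (MulAut.conj b).toMonoidHom ≠ ⊥ →
      H.map (MulAut.conj a).toMonoidHom = H.map (MulAut.conj b).toMonoidHom) {g x y : G}
    (hg : g ∉ Subgroup.center G) (hx : ∃ h ∈ H, h ≠ 1 ∧ h * (x⁻¹ * g * x) = (x⁻¹ * g * x) * h)
    (hy : ∃ h ∈ H, h ≠ 1 ∧ h * (y⁻¹ * g * y) = (y⁻¹ * g * y) * h) :
    x⁻¹ * y ∈ Subgroup.normalizer (H : Set G) := by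
  have key : ∀ x : G, (∃ h ∈ H, h ≠ 1 ∧ h * (x⁻¹ * g * x) = (x⁻¹ * g * x) * h) →
      Subgroup.centralizer ({g} : Set G) ⊓ H.map (MulAut.conj x).toMonoidHom ≠ ⊥ := by
    rintro x ⟨h, hh, h1, hc⟩ hbot
    have h2 : x * h * x⁻¹ ∈ Subgroup.centralizer ({g} : Set G) ⊓
        H.map (MulAut.conj x).toMonoidHom := by
      refine ⟨Subgroup.mem_centralizer_singleton_iff.2 ?_, ⟨h, hh, rfl⟩⟩
      calc (x * h * x⁻¹) * g = x * (h * (x⁻¹ * g * x)) * x⁻¹ := by group
        _ = x * ((x⁻¹ * g * x) * h) * x⁻¹ := by rw [hc]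
        _ = g * (x * h * x⁻¹) := by group
    rw [hbot, Subgroup.mem_bot] at h2
    apply h1
    have : h = x⁻¹ * (x * h * x⁻¹) * x := by group
    rw [this, h2]; group
  have h1 := hone g hg x y (key x hx) (key y hy)
  rw [Subgroup.mem_normalizer_iff]
  intro h
  have e1 : ∀ k : G, k ∈ H.map (MulAut.conj x).toMonoidHom ↔ x⁻¹ * k * x ∈ H := by
    intro k
    constructor
    · rintro ⟨l, hl, rfl⟩
      have : x⁻¹ * (MulAut.conj x).toMonoidHom l * x = l := by
        change x⁻¹ * (x * l * x⁻¹) * x = l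
        group
      rw [this]; exact hl
    · intro hk
      refine ⟨x⁻¹ * k * x, hk, ?_⟩
      change x * (x⁻¹ * k * x) * x⁻¹ = k
      group
  have e2 : h ∈ H ↔ y * h * y⁻¹ ∈ H.map (MulAut.conj y).toMonoidHom := by
    constructor
    · intro hh; exact ⟨h, hh, rfl⟩
    · rintro ⟨l, hl, hle⟩
      have : l = h := by
        have h3 : y * l * y⁻¹ = y * h * y⁻¹ := hle
        exact mul_left_cancel (mul_right_cancel h3)
      rw [← this]; exact hl
  rw [e2, ← h1, e1]
  have : x⁻¹ * (y * h * y⁻¹) * x = x⁻¹ * y * h * (x⁻¹ * y)⁻¹ := by group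
  rw [this]

/-- the counting inequality -/
theorem count_ineq (H : Subgroup G)
    (hone : ∀ g : G, g ∉ Subgroup.center G → ∀ a b : G,
      Subgroup.centralizer ({g} : Set G) ⊓ H.map (MulAut.conj a).toMonoidHom ≠ ⊥ →
      Subgroup.centralizer ({g} : Set G) ⊓ H.map (MulAut.conj b).toMonoidHom ≠ ⊥ →
      H.map (MulAut.conj a).toMonoidHom = H.map (MulAut.conj b).toMonoidHom) (f : G → ℝ)
    (hf : ∀ x y : G, f (x * y * x⁻¹) = f y) (hf0 : ∀ x, 0 ≤ f x) (P : G → Prop)
    [DecidablePred P] (hP : ∀ g, P g ↔ (∃ h ∈ H, h ≠ 1 ∧ h * g = g * h) ∧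
      g ∉ Subgroup.center G) [DecidablePred (fun g : G => g ∉ Subgroup.center G)] :
    (Nat.card G : ℝ) * ∑ s ∈ Finset.univ.filter P, f s ≤
    (Nat.card (Subgroup.normalizer (H : Set G)) : ℝ) *
      ∑ y ∈ Finset.univ.filter (fun g : G => g ∉ Subgroup.center G), f y := by
  classical
  set N := Subgroup.normalizer (H : Set G) with hN
  have h1 : (Nat.card G : ℝ) * ∑ s ∈ Finset.univ.filter P, f s =
      ∑ y : G, f y * ((Finset.univ.filter (fun x : G => P (x⁻¹ * y * x))).card : ℝ) := by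
    have h2 : ∀ x : G, ∑ s ∈ Finset.univ.filter P, f s =
        ∑ y : G, if P (x⁻¹ * y * x) then f y else 0 := by
      intro x
      rw [Finset.sum_filter]
      refine Fintype.sum_equiv (MulAut.conj x).toEquiv _ _ ?_
      intro s
      have h3 : ((MulAut.conj x).toEquiv s : G) = x * s * x⁻¹ := rfl
      have h4 : x⁻¹ * (x * s * x⁻¹) * x = s := by group
      rw [h3, h4, hf]
    have h3 : (Nat.card G : ℝ) * ∑ s ∈ Finset.univ.filter P, f s =
        ∑ x : G, ∑ y : G, if P (x⁻¹ * y * x) then f y else 0 := by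
      rw [← Finset.sum_congr rfl (fun x _ => h2 x), Finset.sum_const, Finset.card_univ,
        nsmul_eq_mul, Nat.card_eq_fintype_card]
    rw [h3, Finset.sum_comm]
    apply Finset.sum_congr rfl
    intro y _
    rw [← Finset.sum_filter, Finset.sum_const, nsmul_eq_mul, mul_comm]
  rw [h1, Finset.mul_sum, Finset.sum_filter]
  apply Finset.sum_le_sum
  intro y _
  by_cases hy : y ∈ Subgroup.center G
  · have h2 : (Finset.univ.filter (fun x : G => P (x⁻¹ * y * x))) = ∅ := by
      rw [Finset.filter_eq_empty_iff]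
      rintro x - hPx
      obtain ⟨-, hx⟩ := (hP _).1 hPx
      apply hx
      have : x⁻¹ * y * x = y := by
        rw [mul_assoc, Subgroup.mem_center_iff.1 hy x |>.symm, ← mul_assoc, inv_mul_cancel,
          one_mul]
      rw [this]; exact hy
    rw [h2, Finset.card_empty, Nat.cast_zero, mul_zero, if_neg (not_not.2 hy)]
  · rw [if_pos hy, mul_comm]
    apply mul_le_mul_of_nonneg_right _ (hf0 y)
    rcases Finset.eq_empty_or_nonempty (Finset.univ.filter (fun x : G => P (x⁻¹ * y * x))) with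
      h2 | ⟨x0, hx0⟩
    · rw [h2, Finset.card_empty, Nat.cast_zero]
      exact Nat.cast_nonneg _
    · have h3 : (Finset.univ.filter (fun x : G => P (x⁻¹ * y * x))).card ≤
          (Finset.univ.filter (fun n : G => n ∈ N)).card := by
        apply Finset.card_le_card_of_injOn (fun x => x0⁻¹ * x)
        · intro x hx
          rw [Finset.mem_coe, Finset.mem_filter] at hx ⊢
          refine ⟨Finset.mem_univ _, ?_⟩
          rw [Finset.mem_filter] at hx0
          exact mem_norm_of H hone hy ((hP _).1 hx0.2).1 ((hP _).1 hx.2).1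
        · intro a _ b _ hab
          exact mul_left_cancel hab
      have h4 : (Finset.univ.filter (fun n : G => n ∈ N)).card = Nat.card N := by
        rw [Nat.card_eq_fintype_card, Fintype.card_subtype]
      rw [h4] at h3
      exact_mod_cast h3

/-- part (a) -/
theorem part_a (H : Subgroup G) [Fintype H] (hab : ∀ a ∈ H, ∀ b ∈ H, a * b = b * a)
    (hZ : H ⊓ Subgroup.center G = ⊥)
    (hone : ∀ g : G, g ∉ Subgroup.center G → ∀ a b : G,
      Subgroup.centralizer ({g} : Set G) ⊓ H.map (MulAut.conj a).toMonoidHom ≠ ⊥ →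
      Subgroup.centralizer ({g} : Set G) ⊓ H.map (MulAut.conj b).toMonoidHom ≠ ⊥ →
      H.map (MulAut.conj a).toMonoidHom = H.map (MulAut.conj b).toMonoidHom) {χ : G → ℂ}
    (hχ : IsIrrCharacter G χ) (hker : ∃ h ∈ H, χ h ≠ χ 1) :
    (χ 1).re ^ 2 > (Nat.card H : ℝ) * (classInner (fun h : H => χ h) (fun _ => 1)).re ^ 2 := by
  classical
  obtain ⟨h₀, hh₀, hne⟩ := hker
  have hh₀1 : h₀ ≠ 1 := by
    rintro rfl
    exact hne rfl
  have hχc := isCharacter_of_isIrr hχ
  set N := Subgroup.normalizer (H : Set G) with hN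
  letI := Fintype.ofFinite N
  have hHN : H ≤ N := Subgroup.le_normalizer
  let A : Subgroup N := H.subgroupOf N
  haveI hAn : A.Normal := Subgroup.normal_in_normalizer
  letI := Fintype.ofFinite A
  let j : A ≃* H := Subgroup.subgroupOfEquivOfLe hHN
  have hcardA : Nat.card A = Nat.card H := Nat.card_congr j.toEquiv
  have hfc : IsCharacter N (fun n : N => χ n) := isCharacter_restrict N hχc
  let P : N → Prop := fun g => ∃ a ∈ A, a ≠ 1 ∧ a * g = g * a
  let Q : G → Prop := fun g => (∃ h ∈ H, h ≠ 1 ∧ h * g = g * h) ∧ g ∉ Subgroup.center G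
  have h1 := ineq_normal A hfc ⟨⟨h₀, hHN hh₀⟩, hh₀, hne⟩ P (fun g => Iff.rfl)
  obtain ⟨n, hn⟩ := exists_degree hχc
  obtain ⟨c, hc⟩ := inner_char_natCast (isCharacter_restrict H hχc)
    (isCharacter_of_isIrr (isIrrCharacter_one (G := H)))
  have hn0 : n ≠ 0 := by
    rintro rfl
    apply irr_one_ne_zero hχ
    rw [hn]; simp
  -- values on the centre
  have hcen' : ∀ z ∈ Subgroup.center G, ∃ ω : ℂ, ‖ω‖ = 1 ∧ ∀ g, χ (z * g) = ω * χ g := by
    intro z hz
    obtain ⟨d, ρ, hρ, rfl⟩ := hχ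
    obtain ⟨ω, hω⟩ := H4.CenterIndex.exists_scalar_of_center ρ hρ hz
    replace hω : ρ z = ω • (1 : Module.End ℂ (Fin d → ℂ)) := hω
    have hd : (d : ℂ) ≠ 0 := by
      have h1 := irr_one_ne_zero (isIrrCharacter_of_rep ρ hρ)
      rw [Representation.char_one, Module.finrank_fin_fun] at h1
      exact h1
    refine ⟨ω, ?_, ?_⟩
    · have h1 : (ρ z) ^ (orderOf z) = 1 := by
        rw [← map_pow, pow_orderOf_eq_one, map_one]
      rw [hω, smul_pow, one_pow] at h1
      have h2 := congrArg (LinearMap.trace ℂ (Fin d → ℂ)) h1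
      rw [map_smul, LinearMap.trace_one, smul_eq_mul, Module.finrank_fin_fun] at h2
      have h3 : ω ^ orderOf z = 1 := by
        exact mul_right_cancel₀ hd (by rw [h2, one_mul])
      exact Complex.norm_eq_one_of_pow_eq_one h3 (orderOf_pos z).ne'
    · intro g
      simp only [Representation.character, map_mul, hω]
      rw [smul_mul_assoc, one_mul, map_smul, smul_eq_mul]
  have hcen : ∀ z ∈ Subgroup.center G, ‖χ z‖ = n := by
    intro z hz
    obtain ⟨ω, h1, h2⟩ := hcen' z hz
    have := h2 1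
    rw [mul_one] at this
    rw [this, norm_mul, h1, hn, one_mul, Complex.norm_natCast]
  -- the upper bound
  have h2 : ∑ g ∈ Finset.univ.filter P, ‖χ (g : G)‖ ^ 2 ≤ ∑ g ∈ Finset.univ.filter Q, ‖χ g‖ ^ 2 +
      (Nat.card (Subgroup.center G) : ℝ) * (n : ℝ) ^ 2 := by
    have e1 : (Nat.card (Subgroup.center G) : ℝ) * (n : ℝ) ^ 2 =
        ∑ g ∈ Finset.univ.filter (fun g : G => g ∈ Subgroup.center G), ‖χ g‖ ^ 2 := by
      rw [Finset.sum_congr rfl (g := fun _ => (n : ℝ) ^ 2) (fun z hz => by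
        rw [hcen z (Finset.mem_filter.1 hz).2]), Finset.sum_const, nsmul_eq_mul]
      congr 1
      rw [Nat.card_eq_fintype_card, Fintype.card_subtype]
    have e2 : Disjoint (Finset.univ.filter Q)
        (Finset.univ.filter (fun g : G => g ∈ Subgroup.center G)) := by
      rw [Finset.disjoint_left]
      intro g hg hg'
      rw [Finset.mem_filter] at hg hg'
      exact hg.2.2 hg'.2
    rw [e1, ← Finset.sum_union e2]
    have e3 : ∑ g ∈ Finset.univ.filter P, ‖χ (g : G)‖ ^ 2 =
        ∑ g ∈ (Finset.univ.filter P).map (Function.Embedding.subtype _), ‖χ g‖ ^ 2 := by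
      rw [Finset.sum_map]
      rfl
    rw [e3]
    apply Finset.sum_le_sum_of_subset_of_nonneg
    · intro g hg
      rw [Finset.mem_map] at hg
      obtain ⟨⟨g', hg'⟩, h3, rfl⟩ := hg
      rw [Finset.mem_filter] at h3
      obtain ⟨-, a, ha, ha1, hag⟩ := h3
      rw [Finset.mem_union, Finset.mem_filter, Finset.mem_filter]
      by_cases hz : g' ∈ Subgroup.center G
      · right
        exact ⟨Finset.mem_univ _, hz⟩
      · left
        refine ⟨Finset.mem_univ _, ⟨a, ha, ?_, ?_⟩, hz⟩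
        · intro h; exact ha1 (Subtype.ext h)
        · exact congrArg Subtype.val hag
    · intro g _ _
      positivity
  have h3 := count_ineq H hone (fun g => ‖χ g‖ ^ 2) (fun x y => by
    have : χ (x * y * x⁻¹) = χ y := isClassFunction_of_isIrr hχ _ _
    rw [this]) (fun x => by positivity) Q (fun g => Iff.rfl)
  have h4 : ∑ y ∈ Finset.univ.filter (fun g : G => g ∉ Subgroup.center G), ‖χ y‖ ^ 2 =
      (Nat.card G : ℝ) - (Nat.card (Subgroup.center G) : ℝ) * (n : ℝ) ^ 2 := by
    have e1 : (Nat.card (Subgroup.center G) : ℝ) * (n : ℝ) ^ 2 =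
        ∑ g ∈ Finset.univ.filter (fun g : G => g ∈ Subgroup.center G), ‖χ g‖ ^ 2 := by
      rw [Finset.sum_congr rfl (g := fun _ => (n : ℝ) ^ 2) (fun z hz => by
        rw [hcen z (Finset.mem_filter.1 hz).2]), Finset.sum_const, nsmul_eq_mul]
      congr 1
      rw [Nat.card_eq_fintype_card, Fintype.card_subtype]
    have e2 := inner_irr_self hχ
    rw [inner_self_eq_sum] at e2
    have e3 : (Nat.card G : ℝ)⁻¹ * ∑ g : G, ‖χ g‖ ^ 2 = 1 := by exact_mod_cast e2
    have e4 : (Nat.card G : ℝ) ≠ 0 := by exact_mod_cast (Nat.card_pos (α := G)).ne'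
    have e5 : ∑ g : G, ‖χ g‖ ^ 2 = Nat.card G := by
      field_simp at e3
      exact e3
    rw [e1, ← e5, ← Finset.sum_filter_add_sum_filter_not Finset.univ
      (fun g : G => g ∈ Subgroup.center G)]
    ring
  have h5 : (Nat.card H : ℝ) * (Nat.card (Subgroup.center G) : ℝ) * (c : ℝ) ^ 2 ≤
      ∑ g ∈ Finset.univ.filter P, ‖av A (fun n : N => χ n) g‖ ^ 2 := by
    have hzN : ∀ z ∈ Subgroup.center G, z ∈ N := by
      intro z hz
      rw [hN, Subgroup.mem_normalizer_iff]
      intro h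
      have : z * h * z⁻¹ = h := by
        rw [← Subgroup.mem_center_iff.1 hz h, mul_inv_cancel_right]
      rw [this]
    let F : H × Subgroup.center G → N := fun x =>
      (⟨x.2, hzN x.2 x.2.2⟩ : N) * (⟨x.1, hHN x.1.2⟩ : N)
    have hFinj : Function.Injective F := by
      rintro ⟨⟨h, hh⟩, ⟨z, hz⟩⟩ ⟨⟨h', hh'⟩, ⟨z', hz'⟩⟩ heq
      have e1 : z * h = z' * h' := congrArg Subtype.val heq
      have e2 : h' * h⁻¹ = z'⁻¹ * z := by
        calc h' * h⁻¹ = z'⁻¹ * (z' * h') * h⁻¹ := by group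
          _ = z'⁻¹ * (z * h) * h⁻¹ := by rw [e1]
          _ = z'⁻¹ * z := by group
      have e3 : h' * h⁻¹ ∈ H ⊓ Subgroup.center G := by
        refine ⟨H.mul_mem hh' (H.inv_mem hh), ?_⟩
        rw [e2]
        exact (Subgroup.center G).mul_mem ((Subgroup.center G).inv_mem hz') hz
      rw [hZ, Subgroup.mem_bot] at e3
      have e4 : h' = h := mul_inv_eq_one.1 e3
      have e5 : z = z' := by
        rw [e4] at e1
        exact mul_right_cancel e1
      subst e4 e5
      rfl
    have hval : ∀ x, ‖av A (fun n : N => χ n) (F x)‖ ^ 2 = (c : ℝ) ^ 2 := by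
      rintro ⟨⟨h, hh⟩, ⟨z, hz⟩⟩
      obtain ⟨ω, hω, hωg⟩ := hcen' z hz
      have e1 : av A (fun n : N => χ n) (F (⟨h, hh⟩, ⟨z, hz⟩)) =
          av A (fun n : N => χ n) ⟨z, hzN z hz⟩ :=
        av_mul A (fun n : N => χ n) ⟨z, hzN z hz⟩ (⟨⟨h, hHN hh⟩, hh⟩ : A)
      have e2 : av A (fun n : N => χ n) ⟨z, hzN z hz⟩ = ω * c := by
        rw [← hc]
        simp only [av, classInner, hcardA]
        have e3 : ∑ k : A, χ ((⟨z, hzN z hz⟩ * (k : N) : N) : G) =
            ω * ∑ h : H, χ h * conj 1 := by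
          rw [Finset.mul_sum]
          refine Fintype.sum_equiv j.toEquiv _ _ ?_
          intro k
          rw [map_one, mul_one]
          exact hωg _
        rw [e3]
        ring
      rw [e1, e2, norm_mul, hω, one_mul, Complex.norm_natCast]
    calc (Nat.card H : ℝ) * (Nat.card (Subgroup.center G) : ℝ) * (c : ℝ) ^ 2
        = ∑ x : H × Subgroup.center G, ‖av A (fun n : N => χ n) (F x)‖ ^ 2 := by
          rw [Finset.sum_congr rfl (fun x _ => hval x), Finset.sum_const, Finset.card_univ,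
            Fintype.card_prod, nsmul_eq_mul, Nat.card_eq_fintype_card, Nat.card_eq_fintype_card]
          push_cast
          ring
      _ = ∑ g ∈ Finset.univ.map ⟨F, hFinj⟩, ‖av A (fun n : N => χ n) g‖ ^ 2 := by
          rw [Finset.sum_map]
          rfl
      _ ≤ _ := by
          apply Finset.sum_le_sum_of_subset_of_nonneg
          · intro g hg
            rw [Finset.mem_map] at hg
            obtain ⟨⟨⟨h, hh⟩, ⟨z, hz⟩⟩, -, rfl⟩ := hg
            rw [Finset.mem_filter]
            refine ⟨Finset.mem_univ _, ⟨h₀, hHN hh₀⟩, hh₀, ?_, ?_⟩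
            · intro h; exact hh₀1 (congrArg Subtype.val h)
            · apply Subtype.ext
              change h₀ * (z * h) = (z * h) * h₀
              rw [← mul_assoc, Subgroup.mem_center_iff.1 hz h₀, mul_assoc, hab h₀ hh₀ h hh,
                mul_assoc]
          · intro g _ _
            positivity
  have e1 : (χ 1).re = n := by rw [hn]; simp
  have e2 : (classInner (fun h : H => χ h) (fun _ => 1)).re = c := by
    have : classInner (fun h : H => χ h) (fun _ => 1) = c := hc
    rw [this]; simp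
  rw [e1, e2]
  rw [h4] at h3
  have g0 : (0 : ℝ) < Nat.card G := by exact_mod_cast (Nat.card_pos (α := G))
  have z0 : (0 : ℝ) < Nat.card (Subgroup.center G) := by
    exact_mod_cast (Nat.card_pos (α := Subgroup.center G))
  have v0 : (0 : ℝ) < Nat.card N := by exact_mod_cast (Nat.card_pos (α := N))
  have n0 : (0 : ℝ) < (n : ℝ) ^ 2 := by positivity
  have h6 : (Nat.card H : ℝ) * (Nat.card (Subgroup.center G) : ℝ) * (c : ℝ) ^ 2 + Nat.card N ≤
      ∑ g ∈ Finset.univ.filter Q, ‖χ g‖ ^ 2 +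
      (Nat.card (Subgroup.center G) : ℝ) * (n : ℝ) ^ 2 := by
    linarith
  have h7 := mul_le_mul_of_nonneg_left h6 g0.le
  rw [mul_add, mul_add] at h7
  have h8 : (Nat.card G : ℝ) * ((Nat.card H : ℝ) * (Nat.card (Subgroup.center G) : ℝ) *
      (c : ℝ) ^ 2) + (Nat.card N : ℝ) * ((Nat.card (Subgroup.center G) : ℝ) * (n : ℝ) ^ 2) ≤
      (Nat.card G : ℝ) * ((Nat.card (Subgroup.center G) : ℝ) * (n : ℝ) ^ 2) := by
    nlinarith
  have h9 : (Nat.card G : ℝ) * (Nat.card (Subgroup.center G) : ℝ) *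
      ((Nat.card H : ℝ) * (c : ℝ) ^ 2) < (Nat.card G : ℝ) * (Nat.card (Subgroup.center G) : ℝ) *
      (n : ℝ) ^ 2 := by
    have : 0 < (Nat.card N : ℝ) * ((Nat.card (Subgroup.center G) : ℝ) * (n : ℝ) ^ 2) := by
      positivity
    nlinarith
  exact lt_of_mul_lt_mul_left h9 (by positivity)

end H19.AbTI
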