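import Cfsg.Agent.Lib.H19.AbTI2
import Cfsg.Agent.Lib.H82.Simple

/-!
# An inequality for characters of groups with a subgroup having trivially intersecting
centralizers, part (b)
-/

set_option autoImplicit false
set_option linter.unusedSectionVars false
set_option linter.style.haveILetI false

namespace H19.AbTI

open Cfsg H18.CharBasic H18.CharOrtho H18.CharInd H18.CharQuot
open scoped ComplexConjugate

universe u

/-- a character of degree `n` of an abelian group has norm at least `n` -/
theorem degree_le_norm {Y : Type u} [Group Y] [Fintype Y] (hcomm : ∀ a b : Y, a * b = b * a)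
    {f : Y → ℂ} (hf : IsCharacter Y f) {n : ℕ} (hn : f 1 = n) : (n : ℝ) ≤ (classInner f f).re := by
  classical
  letI := Fintype.ofFinite (IrrCharacter Y)
  have hcf := isClassFunction_of_isCharacter hf
  have h1 := norm_eq_sum hcf
  have h2 : ∀ χ : IrrCharacter Y, ∃ m : ℕ, classInner f (χ : Y → ℂ) = m := fun χ =>
    inner_char_natCast hf (isCharacter_of_isIrr χ.2)
  choose m hm using h2
  have h3 := congrFun (mem_classFun_expand hcf) 1
  rw [hn, Finset.sum_apply] at h3
  have h4 : (n : ℂ) = ((∑ χ : IrrCharacter Y, m χ : ℕ) : ℂ) := by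
    rw [h3]
    push_cast
    apply Finset.sum_congr rfl
    intro χ _
    rw [Pi.smul_apply, hm, degree_one_of_comm hcomm χ.2, smul_eq_mul, mul_one]
  have h5 : n = ∑ χ : IrrCharacter Y, m χ := by exact_mod_cast h4
  rw [h1, Complex.ofReal_re, h5]
  push_cast
  apply Finset.sum_le_sum
  intro χ _
  rw [hm, Complex.norm_natCast]
  exact_mod_cast Nat.le_self_pow two_ne_zero (m χ)

variable {G : Type u} [Group G] [Fintype G]

theorem part_b (H : Subgroup G) [Fintype H] (hab : ∀ a ∈ H, ∀ b ∈ H, a * b = b * a)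
    (hZ : H ⊓ Subgroup.center G = ⊥)
    (hone : ∀ g : G, g ∉ Subgroup.center G → ∀ a b : G,
      Subgroup.centralizer ({g} : Set G) ⊓ H.map (MulAut.conj a).toMonoidHom ≠ ⊥ →
      Subgroup.centralizer ({g} : Set G) ⊓ H.map (MulAut.conj b).toMonoidHom ≠ ⊥ →
      H.map (MulAut.conj a).toMonoidHom = H.map (MulAut.conj b).toMonoidHom) {χ : G → ℂ}
    (hχ : IsIrrCharacter G χ) (h1 : χ 1 ≠ 1)
    (hM : ∀ M : Subgroup G, M.Normal → H ≤ M → M = ⊤) :
    (1 + (χ 1).re) ^ 2 > (Nat.card H : ℝ) := by
  classical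
  letI := Fintype.ofFinite (IrrCharacter G)
  obtain ⟨n, hn⟩ := exists_degree (isCharacter_of_isIrr hχ)
  have hn0 : n ≠ 0 := by
    rintro rfl
    apply irr_one_ne_zero hχ
    rw [hn]; simp
  have hn1 : n ≠ 1 := by
    rintro rfl
    apply h1
    rw [hn]; simp
  let f : G → ℂ := fun g => χ g * conj (χ g)
  have hf : IsCharacter G f := isCharacter_mul (isCharacter_of_isIrr hχ)
    (isCharacter_conj (isCharacter_of_isIrr hχ))
  have h2 : ∀ ξ : IrrCharacter G, ∃ m : ℕ, classInner f (ξ : G → ℂ) = m := fun ξ =>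
    inner_char_natCast hf (isCharacter_of_isIrr ξ.2)
  choose a ha using h2
  have h3 : ∀ ξ : IrrCharacter G, ∃ m : ℕ, classInner (fun h : H => (ξ : G → ℂ) h)
      (fun _ => 1) = m := fun ξ =>
    inner_char_natCast (isCharacter_restrict H (isCharacter_of_isIrr ξ.2))
      (isCharacter_of_isIrr isIrrCharacter_one)
  choose c hc using h3
  have h4 : ∀ ξ : IrrCharacter G, ∃ m : ℕ, (ξ : G → ℂ) 1 = m := fun ξ =>
    exists_degree (isCharacter_of_isIrr ξ.2)
  choose d hd using h4
  have hexp := mem_classFun_expand (isClassFunction_of_isCharacter hf)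
  -- the degree
  have h5 : (n : ℝ) ^ 2 = ∑ ξ : IrrCharacter G, (a ξ : ℝ) * d ξ := by
    have h6 := congrFun hexp 1
    have h7 : f 1 = (n : ℂ) ^ 2 := by
      change χ 1 * conj (χ 1) = _
      rw [hn, Complex.conj_natCast]; ring
    rw [h7, Finset.sum_apply] at h6
    have h8 : (n : ℂ) ^ 2 = ∑ ξ : IrrCharacter G, (a ξ : ℂ) * d ξ := by
      rw [h6]
      apply Finset.sum_congr rfl
      intro ξ _
      rw [Pi.smul_apply, ha, hd, smul_eq_mul]
    exact_mod_cast h8
  -- the inner product
  have h6 : (classInner (fun h : H => χ h) (fun h : H => χ h)).re =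
      ∑ ξ : IrrCharacter G, (a ξ : ℝ) * c ξ := by
    have h7 : classInner (fun h : H => χ h) (fun h : H => χ h) =
        classInner (fun h : H => f h) (fun _ => 1) := by
      simp only [classInner, map_one, mul_one, f]
    have h8 : (fun h : H => f h) = ∑ ξ : IrrCharacter G, (a ξ : ℂ) • (fun h : H => (ξ : G → ℂ) h) := by
      funext h
      have := congrFun hexp h
      rw [this, Finset.sum_apply, Finset.sum_apply]
      apply Finset.sum_congr rfl
      intro ξ _
      rw [Pi.smul_apply, Pi.smul_apply, ha]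
    have h9 : classInner (fun h : H => χ h) (fun h : H => χ h) =
        ((∑ ξ : IrrCharacter G, (a ξ : ℝ) * c ξ : ℝ) : ℂ) := by
      rw [h7, h8, inner_sum_left]
      push_cast
      apply Finset.sum_congr rfl
      intro ξ _
      rw [H18.CharOrtho.inner_smul_left, hc]
    rw [h9, Complex.ofReal_re]
  have h7 := degree_le_norm (Y := H) (fun x y => Subtype.ext (hab x x.2 y y.2))
    (isCharacter_restrict H (isCharacter_of_isIrr hχ)) (n := n) hn
  rw [h6] at h7
  -- the principal character
  let e : IrrCharacter G := ⟨fun _ => 1, isIrrCharacter_one⟩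
  have hae : a e = 1 := by
    have h8 := ha e
    have h9 : classInner f (e : G → ℂ) = classInner χ χ := by
      simp only [classInner, e, map_one, mul_one, f]
    rw [h9, inner_irr_self hχ] at h8
    exact_mod_cast h8.symm
  have hce : c e = 1 := by
    have h8 := hc e
    have h9 : classInner (fun h : H => (e : G → ℂ) h) (fun _ => 1) = 1 := by
      exact inner_irr_self (isIrrCharacter_one (G := H))
    rw [h9] at h8
    exact_mod_cast h8.symm
  have hde : d e = 1 := by
    have h8 := hd e
    have h9 : (e : G → ℂ) 1 = 1 := rfl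
    rw [h9] at h8
    exact_mod_cast h8.symm
  rw [← Finset.add_sum_erase Finset.univ _ (Finset.mem_univ e), hae, hde] at h5
  rw [← Finset.add_sum_erase Finset.univ _ (Finset.mem_univ e), hae, hce] at h7
  push_cast at h5 h7
  rw [mul_one] at h5 h7
  set s := Real.sqrt (Nat.card H : ℝ) with hs
  have hs2 : s ^ 2 = Nat.card H := Real.sq_sqrt (Nat.cast_nonneg _)
  have hs0 : 0 ≤ s := Real.sqrt_nonneg _
  have hlt : ∀ ξ : IrrCharacter G, ξ ≠ e → s * c ξ < d ξ := by
    intro ξ hξ
    have hker : ∃ h ∈ H, (ξ : G → ℂ) h ≠ (ξ : G → ℂ) 1 := by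
      by_contra hcon
      push Not at hcon
      apply hξ
      have h8 := hM (kerSub (ξ : G → ℂ) (isCharacter_of_isIrr ξ.2)) (kerSub_normal _)
        (fun h hh => hcon h hh)
      have h9 : ξ = H82.Simple.triv G := H82.Simple.ker_eq_top_iff.1 h8
      rw [h9]
      rfl
    have h8 := part_a H hab hZ hone ξ.2 hker
    rw [hd, hc, ← hs2] at h8
    simp only [Complex.natCast_re] at h8
    rw [← mul_pow] at h8
    exact lt_of_pow_lt_pow_left₀ 2 (Nat.cast_nonneg _) h8
  have h8 : s * ∑ ξ ∈ Finset.univ.erase e, (a ξ : ℝ) * c ξ <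
      ∑ ξ ∈ Finset.univ.erase e, (a ξ : ℝ) * d ξ := by
    rw [Finset.mul_sum]
    apply Finset.sum_lt_sum
    · intro ξ hξ
      have h9 := (hlt ξ (Finset.ne_of_mem_erase hξ)).le
      have h10 : (0 : ℝ) ≤ a ξ := Nat.cast_nonneg _
      nlinarith
    · by_contra hcon
      push Not at hcon
      have h9 : ∀ ξ ∈ Finset.univ.erase e, (a ξ : ℝ) * d ξ = 0 := by
        intro ξ hξ
        have h10 := hcon ξ hξ
        have h11 := hlt ξ (Finset.ne_of_mem_erase hξ)
        have h12 : (0 : ℝ) ≤ a ξ := Nat.cast_nonneg _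
        have h13 : (a ξ : ℝ) = 0 := by
          by_contra h14
          have h15 : 0 < (a ξ : ℝ) := lt_of_le_of_ne h12 (Ne.symm h14)
          nlinarith
        rw [h13, zero_mul]
      rw [Finset.sum_eq_zero h9, add_zero] at h5
      have h10 : n ^ 2 = 1 := by exact_mod_cast h5
      exact hn1 ((Nat.pow_eq_one.1 h10).resolve_right two_ne_zero)
  have h9 : (1 : ℝ) < n := by
    have : 1 < n := by omega
    exact_mod_cast this
  have h10 : s < n + 1 := by
    have h11 : s * (n - 1) < (n + 1) * (n - 1) := by nlinarith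
    exact lt_of_mul_lt_mul_right h11 (by linarith)
  rw [hn, Complex.natCast_re, ← hs2]
  have : (1 : ℝ) + n = n + 1 := by ring
  rw [this]
  exact pow_lt_pow_left₀ h10 hs0 two_ne_zero

end H19.AbTI
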