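import Cfsg.Agent.Lib.H19.Carm2

/-!
# The double cover of the alternating group
-/

set_option autoImplicit false
set_option linter.unusedSectionVars false
set_option linter.style.haveILetI false

namespace H19.AltCover

open Equiv Equiv.Perm H19.Carm

universe u v

section ring

variable {R : Type u} [Ring R]

/-- `((1 - a)(1 - b))³ = 1` in characteristic 3 -/
theorem cube_eq (h3 : (3 : R) = 0) {a b : R} (ha : a * a = -1) (hb : b * b = -1)
    (hab : b * a = -(a * b)) : ((1 - a) * (1 - b)) ^ 3 = 1 := by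
  have h3' : ∀ x : R, x + x + x = 0 := by
    intro x
    have : x + x + x = 3 * x := by noncomm_ring
    rw [this, h3, zero_mul]
  -- `v = -a - b + ab`, `v ^ 2 = -3 = 0`
  obtain ⟨v, hv⟩ : ∃ v, v = -a - b + a * b := ⟨_, rfl⟩
  have h1 : (1 - a) * (1 - b) = 1 + v := by rw [hv]; noncomm_ring
  have h2 : v * v = 0 := by
    have e1 : v * v = a * a + b * b + (a * b) * (a * b) + (a * b + b * a) -
        (a * (a * b) + (a * b) * a) - (b * (a * b) + (a * b) * b) := by
      rw [hv]; noncomm_ring
    have e2 : (a * b) * (a * b) = -1 := by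
      have : (a * b) * (a * b) = a * (b * a) * b := by noncomm_ring
      rw [this, hab]
      have : a * -(a * b) * b = -((a * a) * (b * b)) := by noncomm_ring
      rw [this, ha, hb]; noncomm_ring
    have e3 : a * (a * b) + (a * b) * a = 0 := by
      have : (a * b) * a = a * (b * a) := by noncomm_ring
      rw [this, hab]; noncomm_ring
    have e4 : b * (a * b) + (a * b) * b = 0 := by
      have : b * (a * b) = (b * a) * b := by noncomm_ring
      rw [this, hab]; noncomm_ring
    rw [e1, e2, e3, e4, ha, hb, hab]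
    have : (-1 : R) + -1 + -1 + (a * b + -(a * b)) - 0 - 0 = -(1 + 1 + 1) := by noncomm_ring
    rw [this, h3']
    exact neg_zero
  rw [h1]
  have h4 : (1 + v) ^ 3 = 1 + (v + v + v) + (v * v + v * v + v * v) + v * v * v := by
    rw [pow_three]; noncomm_ring
  rw [h4, h3', h2]
  noncomm_ring

/-- `((1 - a)(1 - b)(1 - a)(1 - c))² = -1` in characteristic 3 -/
theorem sq_eq (h3 : (3 : R) = 0) {a b c : R} (ha : a * a = -1) (hb : b * b = -1)
    (hc : c * c = -1) (hab : b * a = -(a * b)) (hac : c * a = -(a * c))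
    (hbc : c * b = -(b * c)) : ((1 - a) * (1 - b) * ((1 - a) * (1 - c))) ^ 2 = -1 := by
  have h3' : ∀ x : R, x + x + x = 0 := by
    intro x
    have : x + x + x = 3 * x := by noncomm_ring
    rw [this, h3, zero_mul]
  have h1 : (1 - a) * (1 - b) * ((1 - a) * (1 - c)) = (a + b) * (1 - c) := by
    have e1 : (1 - a) * (1 - b) * ((1 - a) * (1 - c)) =
        ((1 - a) * (1 - b) * (1 - a)) * (1 - c) := by noncomm_ring
    have e2 : (1 - a) * (1 - b) * (1 - a) = 1 - a - a + a * a - b + (b * a + a * b) -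
        a * (b * a) := by noncomm_ring
    have e3 : a * (b * a) = b := by
      rw [hab]
      have : a * -(a * b) = -((a * a) * b) := by noncomm_ring
      rw [this, ha]; noncomm_ring
    rw [e1, e2, e3, hab, ha]
    congr 1
    have : (1 : R) - a - a + -1 - b + (-(a * b) + a * b) - b = (a + b) - (a + a + a) -
      (b + b + b) := by noncomm_ring
    rw [this, h3', h3']
    noncomm_ring
  rw [h1, sq]
  have e1 : (a + b) * (1 - c) * ((a + b) * (1 - c)) =
      (a + b) * ((a + b) - (c * a + c * b)) * (1 - c) := by noncomm_ring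
  have e2 : (a + b) * ((a + b) - (c * a + c * b)) = ((a + b) * (a + b)) * (1 + c) := by
    rw [hac, hbc]; noncomm_ring
  have e3 : (a + b) * (a + b) = 1 := by
    have : (a + b) * (a + b) = a * a + b * b + (b * a + a * b) := by noncomm_ring
    rw [this, ha, hb, hab]
    have : (-1 : R) + -1 + (-(a * b) + a * b) = 1 - (1 + 1 + 1) := by noncomm_ring
    rw [this, h3', sub_zero]
  have e4 : (1 + c) * (1 - c) = 1 - c * c := by noncomm_ring
  rw [e1, e2, e3, one_mul, e4, hc]
  have : (1 : R) - -1 = (1 + 1 + 1) + -1 := by noncomm_ring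
  rw [this, h3', zero_add]

end ring

/-- the commutator computation -/
theorem comm_eq {G : Type u} [Group G] {x y z : G} (hx : x ^ 3 = 1) (hy : y ^ 3 = 1)
    (hz : ∀ g, z * g = g * z) (hz2 : z * z = 1) (hxy : (x * y) ^ 2 = z)
    (hyx : (y * x) ^ 2 = z) : (x * y) * (y * x) * (x * y)⁻¹ * (y * x)⁻¹ = z := by
  have h1 : (x * y)⁻¹ = z * (x * y) := by
    rw [inv_eq_iff_mul_eq_one, ← mul_assoc, ← hz, mul_assoc, ← sq, hxy, hz2]
  have h2 : (y * x)⁻¹ = z * (y * x) := by
    rw [inv_eq_iff_mul_eq_one, ← mul_assoc, ← hz, mul_assoc, ← sq, hyx, hz2]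
  -- `(xy · yx)² = z`
  have hxi : x⁻¹ = x * x := by rw [inv_eq_iff_mul_eq_one, ← hx, pow_three]
  have hyi : y⁻¹ = y * y := by rw [inv_eq_iff_mul_eq_one, ← hy, pow_three]
  have h3 : x⁻¹ * y⁻¹ = z * (y * x) := by rw [← mul_inv_rev, h2]
  have h4 : (x * y) * (y * x) * ((x * y) * (y * x)) = z := by
    calc (x * y) * (y * x) * ((x * y) * (y * x)) = x * (y * y) * (x * x) * (y * y) * x := by group
      _ = x * y⁻¹ * (x⁻¹ * y⁻¹) * x := by rw [← hxi, ← hyi]; group
      _ = x * y⁻¹ * (z * (y * x)) * x := by rw [h3]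
      _ = z * (x * (y⁻¹ * y) * x * x) := by
        have : x * y⁻¹ * (z * (y * x)) * x = (x * y⁻¹ * z) * (y * x) * x := by group
        rw [this, ← hz]; group
      _ = z := by
        rw [inv_mul_cancel, mul_one, ← pow_three', hx, mul_one]
  rw [h1, h2]
  have h5 : x * y * (y * x) * (z * (x * y)) * (z * (y * x)) =
      (z * z) * ((x * y) * (y * x) * ((x * y) * (y * x))) := by
    have e1 : x * y * (y * x) * (z * (x * y)) = z * (x * y * (y * x) * (x * y)) := by
      rw [← mul_assoc _ z, ← hz]; group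
    rw [e1]
    have e2 : z * (x * y * (y * x) * (x * y)) * (z * (y * x)) =
        z * ((x * y * (y * x) * (x * y)) * z) * (y * x) := by group
    rw [e2, ← hz]; group
  rw [h5, h4, hz2, one_mul]

end H19.AltCover
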