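import Cfsg.Agent.Lib.H19.AltCover

/-!
# The double cover of the alternating group: existence
-/

set_option autoImplicit false
set_option linter.unusedSectionVars false
set_option linter.style.haveILetI false

namespace H19.AltCover

open Equiv Equiv.Perm H19.Carm

universe u v

/-- `- ∑ x_i²` over the field with three elements -/
noncomputable def QF (m : ℕ) : QuadraticForm (ZMod 3) (Fin m → ZMod 3) :=
  QuadraticMap.weightedSumSquares (ZMod 3) (fun _ : Fin m => (-1 : ZMod 3))

noncomputable def fi (m : ℕ) (i : Fin m) : CliffordAlgebra (QF m) :=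
  CliffordAlgebra.ι (QF m) (Pi.single i 1)

theorem QF_single (m : ℕ) (i : Fin m) : QF m (Pi.single i 1) = -1 := by
  rw [QF, QuadraticMap.weightedSumSquares_apply, Finset.sum_eq_single i]
  · simp
  · intro j _ hj
    simp [Pi.single_eq_of_ne hj]
  · intro h; exact absurd (Finset.mem_univ _) h

theorem fi_sq (m : ℕ) (i : Fin m) : fi m i * fi m i = -1 := by
  rw [fi, CliffordAlgebra.ι_sq_scalar, QF_single, map_neg, map_one]

theorem fi_anti (m : ℕ) {i j : Fin m} (hij : i ≠ j) : fi m j * fi m i = -(fi m i * fi m j) := by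
  have h1 := CliffordAlgebra.ι_mul_ι_add_swap (Q := QF m) (Pi.single i 1) (Pi.single j 1)
  have h2 : QuadraticMap.polar (QF m) (Pi.single i 1) (Pi.single j 1) = 0 := by
    rw [QuadraticMap.polar, QF_single, QF_single]
    rw [QF, QuadraticMap.weightedSumSquares_apply]
    rw [← Finset.add_sum_erase Finset.univ _ (Finset.mem_univ i),
      ← Finset.add_sum_erase (Finset.univ.erase i) _ (Finset.mem_erase.2
        ⟨hij.symm, Finset.mem_univ j⟩)]
    have h3 : ∑ x ∈ (Finset.univ.erase i).erase j, (-1 : ZMod 3) •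
        ((Pi.single i 1 + Pi.single j 1 : Fin m → ZMod 3) x *
          (Pi.single i 1 + Pi.single j 1 : Fin m → ZMod 3) x) = 0 := by
      apply Finset.sum_eq_zero
      intro x hx
      rw [Finset.mem_erase, Finset.mem_erase] at hx
      rw [Pi.add_apply, Pi.single_eq_of_ne hx.2.1, Pi.single_eq_of_ne hx.1]
      simp
    rw [h3, Pi.add_apply, Pi.add_apply, Pi.single_eq_same, Pi.single_eq_same,
      Pi.single_eq_of_ne hij, Pi.single_eq_of_ne hij.symm]
    norm_num
  rw [h2, map_zero] at h1
  exact eq_neg_of_add_eq_zero_right h1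

noncomputable instance : Invertible (2 : ZMod 3) := ⟨2, by decide, by decide⟩

instance (m : ℕ) : Nontrivial (CliffordAlgebra (QF m)) := inferInstance

theorem three_eq (m : ℕ) : (3 : CliffordAlgebra (QF m)) = 0 := by
  have h1 : ((3 : ZMod 3) : ZMod 3) = 0 := by decide
  have h2 := congrArg (algebraMap (ZMod 3) (CliffordAlgebra (QF m))) h1
  rw [map_zero, map_ofNat] at h2
  exact h2

theorem neg_one_ne (m : ℕ) : (-1 : CliffordAlgebra (QF m)) ≠ 1 := by
  intro h
  have h1 : (algebraMap (ZMod 3) (CliffordAlgebra (QF m))) (-1) =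
      (algebraMap (ZMod 3) (CliffordAlgebra (QF m))) 1 := by
    rw [map_neg, map_one, h]
  have h2 := (algebraMap (ZMod 3) (CliffordAlgebra (QF m))).injective h1
  exact absurd h2 (by decide)

/-- the generators -/
noncomputable def E (m : ℕ) (i : ℕ) : CliffordAlgebra (QF (m + 1)) :=
  if h : i < m then (1 - fi (m + 1) 0) * (1 - fi (m + 1) ⟨i + 1, by omega⟩) else 1

theorem E_cube (m i : ℕ) : E m i ^ 3 = 1 := by
  unfold E
  split_ifs with h
  · apply cube_eq (three_eq _) (fi_sq _ _) (fi_sq _ _)
    apply fi_anti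
    intro h'
    have := congrArg Fin.val h'
    simp at this
  · exact one_pow 3

theorem E_sq {m i j : ℕ} (hi : i < m) (hj : j < m) (hij : i ≠ j) : (E m i * E m j) ^ 2 = -1 := by
  unfold E
  rw [dif_pos hi, dif_pos hj]
  apply sq_eq (three_eq _) (fi_sq _ _) (fi_sq _ _) (fi_sq _ _)
  · apply fi_anti
    intro h'
    have := congrArg Fin.val h'
    simp at this
  · apply fi_anti
    intro h'
    have := congrArg Fin.val h'
    simp at this
  · apply fi_anti
    intro h'
    have := congrArg Fin.val h'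
    simp at this
    exact hij this

/-- the generators as units -/
noncomputable def U (m : ℕ) (i : ℕ) : (CliffordAlgebra (QF (m + 1)))ˣ :=
  ⟨E m i, E m i * E m i, by rw [← pow_three]; exact E_cube m i, by
    rw [← pow_three']; exact E_cube m i⟩

theorem U_cube (m i : ℕ) : U m i ^ 3 = 1 := Units.ext (E_cube m i)

theorem U_sq {m i j : ℕ} (hi : i < m) (hj : j < m) (hij : i ≠ j) : (U m i * U m j) ^ 2 = -1 :=
  Units.ext (E_sq hi hj hij)

set_option maxRecDepth 100000 in
/-- a nontrivial normal subgroup of `A_4` contains the product of two generators -/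
theorem four_aux : ∀ g : Perm (Fin 4), sign g = 1 → g ≠ 1 → ∃ x : Perm (Fin 4), sign x = 1 ∧
    (x * g * x⁻¹ = (swap 0 1 * swap 1 2) * (swap 0 1 * swap 1 3) ∨
      x * g * x⁻¹ * g⁻¹ = (swap 0 1 * swap 1 2) * (swap 0 1 * swap 1 3)) := by
  decide

theorem normal_aux {m : ℕ} (hm : 2 ≤ m) (N : Subgroup (alternatingGroup (Fin (m + 2))))
    (hN : N.Normal) (hv : ea m 0 * ea m 1 ∉ N) : N = ⊥ := by
  rcases Nat.lt_or_ge 2 m with h | h
  · haveI := alternatingGroup.isSimpleGroup (α := Fin (m + 2)) (by
      rw [Nat.card_eq_fintype_card, Fintype.card_fin]; omega)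
    rcases hN.eq_bot_or_eq_top with h1 | h1
    · exact h1
    · exfalso
      apply hv
      rw [h1]
      trivial
  · have hm2 : m = 2 := by omega
    subst hm2
    rw [eq_bot_iff]
    intro g hg
    rw [Subgroup.mem_bot]
    by_contra hg1
    obtain ⟨x, hx, h1⟩ := four_aux g (mem_alternatingGroup.1 g.2) (fun h => hg1 (Subtype.ext h))
    apply hv
    have hv' : ((ea 2 0 * ea 2 1 : alternatingGroup (Fin 4)) : Perm (Fin 4)) =
        (swap 0 1 * swap 1 2) * (swap 0 1 * swap 1 3) := by
      change ep 2 0 * ep 2 1 = _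
      rw [ep_eq (by norm_num), ep_eq (by norm_num)]
      rfl
    let x' : alternatingGroup (Fin 4) := ⟨x, mem_alternatingGroup.2 hx⟩
    rcases h1 with h1 | h1
    · have : ea 2 0 * ea 2 1 = x' * g * x'⁻¹ := Subtype.ext (by rw [hv', ← h1]; rfl)
      rw [this]
      exact hN.conj_mem g hg x'
    · have : ea 2 0 * ea 2 1 = x' * g * x'⁻¹ * g⁻¹ := Subtype.ext (by rw [hv', ← h1]; rfl)
      rw [this]
      exact N.mul_mem (hN.conj_mem g hg x') (N.inv_mem hg)

end H19.AltCover
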