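import Cfsg.Agent.Lib.H19.AltCover2

/-!
# The double cover of the alternating group: existence
-/

set_option autoImplicit false
set_option linter.unusedSectionVars false
set_option linter.style.haveILetI false

namespace H19.AltCover

open Equiv Equiv.Perm H19.Carm

universe u v

/-- **The double cover of `A_n`** -/
theorem exists_cover (n : ℕ) (hn : 4 ≤ n) : ∃ (Γ : Type) (_ : Group Γ) (_ : Finite Γ) (z : Γ)
    (hz : z ∈ Subgroup.center Γ), orderOf z = 2 ∧ z ∈ commutator Γ ∧
    ∃ _ : (Subgroup.zpowers z).Normal,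
      Nonempty (Γ ⧸ Subgroup.zpowers z ≃* alternatingGroup (Fin n)) := by
  obtain ⟨m, rfl⟩ : ∃ m, n = m + 2 := ⟨n - 2, by omega⟩
  have hm : 2 ≤ m := by omega
  let Γ : Subgroup (CliffordAlgebra (QF (m + 1)))ˣ := gen (U m) m
  let u : ℕ → Γ := fun i => if h : i < m then ⟨U m i, mem_gen h⟩ else 1
  have hu : ∀ i (h : i < m), u i = ⟨U m i, mem_gen h⟩ := fun i h => dif_pos h
  have hneg : (-1 : (CliffordAlgebra (QF (m + 1)))ˣ) ∈ Γ := by
    rw [← U_sq (m := m) (i := 0) (j := 1) (by omega) (by omega) (by omega)]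
    exact Γ.pow_mem (Γ.mul_mem (mem_gen (by omega)) (mem_gen (by omega))) 2
  let z : Γ := ⟨-1, hneg⟩
  have hz1 : z ≠ 1 := by
    intro h
    have h1 := congrArg (fun g : Γ => (((g : (CliffordAlgebra (QF (m + 1)))ˣ)) :
      CliffordAlgebra (QF (m + 1)))) h
    exact neg_one_ne (m + 1) (by simpa [z] using h1)
  have hz2 : z * z = 1 := Subtype.ext (by simp [z])
  have hzc : ∀ g : Γ, z * g = g * z := fun g => Subtype.ext (by simp [z])
  have hzcen : z ∈ Subgroup.center Γ := Subgroup.mem_center_iff.2 (fun g => (hzc g).symm)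
  have hord : orderOf z = 2 := orderOf_eq_prime (by rw [sq, hz2]) hz1
  have hN : (Subgroup.zpowers z).Normal := by
    have hle : Subgroup.zpowers z ≤ Subgroup.center Γ := by rwa [Subgroup.zpowers_le]
    constructor
    intro g hg x
    have h1 := Subgroup.mem_center_iff.1 (hle hg) x
    rw [h1, mul_inv_cancel_right]
    exact hg
  have ucube : ∀ i < m, u i ^ 3 = 1 := by
    intro i hi
    rw [hu i hi]
    exact Subtype.ext (U_cube m i)
  have usq : ∀ i < m, ∀ j < m, i ≠ j → (u i * u j) ^ 2 = z := by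
    intro i hi j hj hij
    rw [hu i hi, hu j hj]
    exact Subtype.ext (U_sq hi hj hij)
  -- the quotient
  let mk : Γ →* Γ ⧸ Subgroup.zpowers z := QuotientGroup.mk' (Subgroup.zpowers z)
  have hmkz : mk z = 1 := (QuotientGroup.eq_one_iff z).2 (Subgroup.mem_zpowers z)
  have hrel : Rel (fun i => mk (u i)) m := by
    constructor
    · intro i hi
      rw [← map_pow, ucube i hi, map_one]
    · intro i hi j hj hij
      rw [← map_mul, ← map_pow, usq i hi j hj hij, hmkz]
  obtain ⟨φ, hφ⟩ := exists_hom m _ hrel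
  have hφs : Function.Surjective φ := by
    intro q
    obtain ⟨g, rfl⟩ := QuotientGroup.mk'_surjective (Subgroup.zpowers z) q
    change ∃ a, φ a = mk g
    have key : ∀ (x : (CliffordAlgebra (QF (m + 1)))ˣ) (hx : x ∈ Γ), ∃ a, φ a = mk ⟨x, hx⟩ := by
      intro x hx
      induction hx using Subgroup.closure_induction with
      | mem x hx =>
        obtain ⟨i, hi, rfl⟩ := hx
        refine ⟨ea m i, ?_⟩
        rw [hφ i hi, hu i hi]
      | one => exact ⟨1, by rw [map_one]; exact (map_one mk).symm⟩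
      | mul x y hx hy ihx ihy =>
        obtain ⟨a, ha⟩ := ihx
        obtain ⟨b, hb⟩ := ihy
        exact ⟨a * b, by rw [map_mul, ha, hb, ← map_mul]; rfl⟩
      | inv x hx ihx =>
        obtain ⟨a, ha⟩ := ihx
        exact ⟨a⁻¹, by rw [map_inv, ha, ← map_inv]; rfl⟩
    exact key g g.2
  have hker : φ.ker = ⊥ := by
    apply normal_aux hm _ inferInstance
    intro h
    rw [MonoidHom.mem_ker, map_mul, hφ 0 (by omega), hφ 1 (by omega), ← map_mul] at h
    have h1 : u 0 * u 1 ∈ Subgroup.zpowers z := (QuotientGroup.eq_one_iff _).1 h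
    obtain ⟨k, hk⟩ := h1
    have h2 : (u 0 * u 1) ^ 2 = 1 := by
      have h3 : z ^ k = u 0 * u 1 := hk
      rw [← h3, ← zpow_natCast, ← zpow_mul, mul_comm, zpow_mul, zpow_natCast, sq z, hz2, one_zpow]
    rw [usq 0 (by omega) 1 (by omega) (by omega)] at h2
    exact hz1 h2
  have hφi : Function.Injective φ := (MonoidHom.ker_eq_bot_iff φ).1 hker
  let e := MulEquiv.ofBijective φ ⟨hφi, hφs⟩
  have hfinq : Finite (Γ ⧸ Subgroup.zpowers z) := Finite.of_equiv _ e.toEquiv
  have hfinz : Finite (Subgroup.zpowers z) := by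
    have h : IsOfFinOrder z := orderOf_pos_iff.1 (by rw [hord]; norm_num)
    exact (finite_zpowers.2 h).to_subtype
  have hfin : Finite Γ := Finite.of_subgroup_quotient (Subgroup.zpowers z)
  refine ⟨Γ, inferInstance, hfin, z, hzcen, hord, ?_, hN, ⟨e.symm⟩⟩
  have h1 := comm_eq (ucube 0 (by omega)) (ucube 1 (by omega)) hzc hz2
    (usq 0 (by omega) 1 (by omega) (by omega)) (usq 1 (by omega) 0 (by omega) (by omega))
  rw [← h1]
  exact Subgroup.commutator_mem_commutator (Subgroup.mem_top _) (Subgroup.mem_top _)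

end H19.AltCover
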