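import Cfsg.Agent.Lib.H83.Gallagher
import Cfsg.Agent.Lib.H78.Galois
import Cfsg.Agent.Lib.H19.Berger1
import Cfsg.Agent.Lib.H5.BurnsideZero

/-!
# Small degree characters of groups with a normal `p`-complement (Ito)
-/

set_option autoImplicit false
set_option linter.unusedSectionVars false
set_option linter.style.haveILetI false

namespace H19.Ito

open Cfsg H18.CharBasic H18.CharOrtho H18.CharInd H18.CharQuot
open scoped ComplexConjugate

universe u

/-- a set of `p`-th roots of `μ` closed under an affine map has at least `p - 1` elements or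
one element -/
theorem affine_cycle {p K : ℕ} (hp : p.Prime) (hp2 : 2 < p) (hK1 : 1 ≤ K)
    (hK : ∀ i j, i < p - 1 → j < p - 1 → K ^ i ≡ K ^ j [MOD p] → i = j) {l μ : ℂ} (hμ : μ ≠ 0)
    (E : Finset ℂ) (hE : ∀ x ∈ E, x ^ p = μ) (ht : ∀ x ∈ E, x ^ K * l ∈ E)
    (hc : E.card < p - 1) : ∀ x ∈ E, ∀ y ∈ E, x = y := by
  classical
  haveI : Fact p.Prime := ⟨hp⟩
  have hE0 : ∀ x ∈ E, x ≠ 0 := by
    rintro x hx rfl
    apply hμ
    rw [← hE 0 hx, zero_pow hp.ne_zero]
  intro x0 hx0 y0 hy0
  -- the fixed point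
  have hKp : ¬ p ∣ K - 1 := by
    intro h
    have h1 : K ^ 0 ≡ K ^ 1 [MOD p] := by
      rw [pow_zero, pow_one]
      exact (Nat.modEq_iff_dvd' hK1).2 h
    have := hK 0 1 (by omega) (by omega) h1
    omega
  obtain ⟨m, hm⟩ : ∃ m : ℕ, p ∣ 1 + m * (K - 1) := by
    have h1 : ((K - 1 : ℕ) : ZMod p) ≠ 0 := by
      rw [Ne, ZMod.natCast_eq_zero_iff]
      exact hKp
    refine ⟨(-((K - 1 : ℕ) : ZMod p)⁻¹).val, ?_⟩
    rw [← ZMod.natCast_eq_zero_iff]
    push_cast
    rw [ZMod.natCast_zmod_val, neg_mul, inv_mul_cancel₀ h1]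
    ring
  set δ := x0 ^ K * l / x0 with hδ
  have hδp : δ ^ p = 1 := by
    rw [hδ, div_pow, hE _ (ht x0 hx0), hE x0 hx0, div_self hμ]
  set w := x0 * δ ^ m with hw
  have hwp : w ^ p = μ := by
    rw [hw, mul_pow, ← pow_mul, mul_comm m p, pow_mul, hδp, one_pow, mul_one, hE x0 hx0]
  have hw0 : w ≠ 0 := by
    intro h
    apply hμ
    rw [← hwp, h, zero_pow hp.ne_zero]
  have hwK : w ^ K * l = w := by
    have h1 : x0 ^ K * l = x0 * δ := by
      rw [hδ, mul_div_cancel₀ _ (hE0 x0 hx0)]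
    have h2 : w ^ K * l = x0 * δ * δ ^ (m * K) := by
      rw [hw, mul_pow, ← pow_mul, ← h1]; ring
    have h3 : δ ^ (1 + m * (K - 1)) = 1 := by
      obtain ⟨k, hk⟩ := hm
      rw [hk, pow_mul, hδp, one_pow]
    have h4 : δ * δ ^ (m * K) = δ ^ m := by
      have h5 : m * K = m * (K - 1) + m := by
        obtain ⟨K', rfl⟩ : ∃ K', K = K' + 1 := ⟨K - 1, by omega⟩
        simp; ring
      rw [h5, pow_add, ← mul_assoc, ← pow_succ', add_comm (m * (K - 1)) 1, h3, one_mul]
    rw [h2, mul_assoc, h4]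
  have key : ∀ x ∈ E, x = w := by
    intro x hx
    by_contra hne
    set r := x / w with hr
    have hx' : x = w * r := by rw [hr, mul_div_cancel₀ _ hw0]
    have hrp : r ^ p = 1 := by rw [hr, div_pow, hE x hx, hwp, div_self hμ]
    have hr1 : r ≠ 1 := by
      intro h
      rw [h, mul_one] at hx'
      exact hne hx'
    have hord : orderOf r = p := orderOf_eq_prime hrp hr1
    have hmem : ∀ j, w * r ^ (K ^ j) ∈ E := by
      intro j
      induction j with
      | zero => rw [pow_zero, pow_one, ← hx']; exact hx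
      | succ j ih =>
        have h1 := ht _ ih
        have h2 : (w * r ^ K ^ j) ^ K * l = w * r ^ (K ^ (j + 1)) := by
          rw [mul_pow, ← pow_mul, ← pow_succ, mul_right_comm, hwK]
        rwa [h2] at h1
    have hcard : p - 1 ≤ E.card := by
      rw [← Finset.card_range (p - 1)]
      apply Finset.card_le_card_of_injOn (fun j => w * r ^ (K ^ j))
      · intro j _
        exact hmem j
      · intro i hi j hj hij
        rw [Finset.coe_range, Set.mem_Iio] at hi hj
        have h1 : r ^ K ^ i = r ^ K ^ j := mul_left_cancel₀ hw0 hij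
        have hr0 : r ≠ 0 := by
          intro h
          rw [h, zero_pow hp.ne_zero] at hrp
          exact zero_ne_one hrp
        have h2 : (Units.mk0 r hr0) ^ K ^ i = (Units.mk0 r hr0) ^ K ^ j := by
          apply Units.ext
          simpa using h1
        have h3 : orderOf (Units.mk0 r hr0) = p := by
          rw [← orderOf_units]
          exact hord
        rw [pow_eq_pow_iff_modEq, h3] at h2
        exact hK i j hi hj h2
    omega
  rw [key x0 hx0, key y0 hy0]

/-- existence of the exponent -/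
theorem exists_exponent {p m : ℕ} (hp : p.Prime) (hm : Nat.Coprime m p) :
    ∃ K : ℕ, 1 ≤ K ∧ K ≡ 1 [MOD m] ∧ ¬ p ∣ K ∧
      ∀ i j, i < p - 1 → j < p - 1 → K ^ i ≡ K ^ j [MOD p] → i = j := by
  haveI : Fact p.Prime := ⟨hp⟩
  obtain ⟨g, hg⟩ := IsCyclic.exists_generator (α := (ZMod p)ˣ)
  have hord : orderOf g = p - 1 := by
    rw [orderOf_eq_card_of_forall_mem_zpowers hg, Nat.card_eq_fintype_card, ZMod.card_units]
  obtain ⟨K, hK1, hK2⟩ := Nat.chineseRemainder hm 1 ((g : ZMod p).val)
  have hKg : (K : ZMod p) = g := by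
    have := (ZMod.natCast_eq_natCast_iff K ((g : ZMod p).val) p).2 hK2
    rw [this, ZMod.natCast_zmod_val]
  have hKp : ¬ p ∣ K := by
    intro h
    rw [← ZMod.natCast_eq_zero_iff, hKg] at h
    exact g.ne_zero h
  refine ⟨K, ?_, hK1, hKp, ?_⟩
  · rcases Nat.eq_zero_or_pos K with h | h
    · exfalso
      apply hKp
      rw [h]
      exact dvd_zero p
    · exact h
  · intro i j hi hj hij
    have h1 : g ^ i = g ^ j := by
      apply Units.ext
      rw [Units.val_pow_eq_pow_val, Units.val_pow_eq_pow_val, ← hKg]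
      have := (ZMod.natCast_eq_natCast_iff (K ^ i) (K ^ j) p).2 hij
      push_cast at this
      exact this
    rw [← hord] at hi hj
    exact pow_injOn_Iio_orderOf hi hj h1

theorem central_scalar {G : Type u} [Group G] [Finite G] {χ : G → ℂ} (hχ : IsIrrCharacter G χ)
    {z : G} (hz : z ∈ Subgroup.center G) : ∃ ω : ℂ, ‖ω‖ = 1 ∧ ∀ g, χ (z * g) = ω * χ g := by
  obtain ⟨d, ρ, hρ, rfl⟩ := hχ
  obtain ⟨ω, hω⟩ := H4.CenterIndex.exists_scalar_of_center ρ hρ hz
  replace hω : ρ z = ω • (1 : Module.End ℂ (Fin d → ℂ)) := hω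
  have hd : (d : ℂ) ≠ 0 := by
    have h1 := irr_one_ne_zero (isIrrCharacter_of_rep ρ hρ)
    rw [Representation.char_one, Module.finrank_fin_fun] at h1
    exact h1
  refine ⟨ω, ?_, ?_⟩
  · have h1 : (ρ z) ^ (orderOf z) = 1 := by
      rw [← map_pow, pow_orderOf_eq_one, map_one]
    rw [hω, smul_pow, one_pow] at h1
    have h2 := congrArg (LinearMap.trace ℂ (Fin d → ℂ)) h1
    rw [map_smul, LinearMap.trace_one, smul_eq_mul, Module.finrank_fin_fun] at h2
    have h3 : ω ^ orderOf z = 1 := by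
      exact mul_right_cancel₀ hd (by rw [h2, one_mul])
    exact Complex.norm_eq_one_of_pow_eq_one h3 (orderOf_pos z).ne'
  · intro g
    simp only [Representation.character, map_mul, hω]
    rw [smul_mul_assoc, one_mul, map_smul, smul_eq_mul]

/-- **Ito's lemma**: `L` a normal `p'`-subgroup of `p`-power index, `χ_L` irreducible of degree
less than `p - 1`, `y ^ p` central: `y` acts as a scalar. -/
theorem norm_eq {G : Type u} [Group G] [Fintype G] {p a : ℕ} (hp : p.Prime) (L : Subgroup G)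
    [L.Normal] (hcop : Nat.Coprime (Nat.card L) p) (hcard : Nat.card G = Nat.card L * p ^ a)
    {χ : G → ℂ} (hχ : IsIrrCharacter G χ) (hχL : IsIrrCharacter L (fun x : L => χ x)) {n : ℕ}
    (hn : χ 1 = n) (hnp : n < p - 1) {y : G} (hy : y ^ p ∈ Subgroup.center G) :
    ‖χ y‖ = ‖χ 1‖ := by
  classical
  have hχc := isCharacter_of_isIrr hχ
  have hn0 : n ≠ 0 := by
    rintro rfl
    apply irr_one_ne_zero hχ
    rw [hn]; simp
  obtain ⟨K, hK0, hK1, hKp, hK⟩ := exists_exponent hp hcop
  have hKG : Nat.Coprime K (Nat.card G) := by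
    rw [hcard]
    apply Nat.Coprime.mul_right
    · have := Nat.ModEq.gcd_eq hK1
      rw [Nat.coprime_iff_gcd_eq_one, this, Nat.gcd_one_left]
    · exact ((Nat.Prime.coprime_iff_not_dvd hp).2 hKp).symm.pow_right a
  have hχ' := H78.Galois.isIrr_pow hKG hχ
  letI := Fintype.ofFinite L
  have hLK : ∀ x : L, χ ((x : G) ^ K) = χ x := by
    intro x
    congr 1
    have h1 : (x : G) ^ (Nat.card L) = 1 := by
      have : x ^ Nat.card L = 1 := pow_card_eq_one'
      exact_mod_cast congrArg Subtype.val this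
    have h2 : K ≡ 1 [MOD orderOf (x : G)] := by
      exact hK1.of_dvd (orderOf_dvd_of_pow_eq_one h1)
    rw [pow_eq_pow_iff_modEq.2 h2, pow_one]
  obtain ⟨lam, hlam, hlamL, hlamχ⟩ := H83.Gallagher.exists_eq_mul hχ L hχL hχ' (by
    have : (fun n : L => χ ((n : G) ^ K)) = fun n : L => χ n := funext hLK
    rw [this, inner_irr_self hχL]
    exact one_ne_zero)
  have hlam1 : lam 1 = 1 := by
    have h1 := congrFun hlamχ 1
    simp only [one_pow] at h1
    have h2 := irr_one_ne_zero hχ
    exact mul_right_cancel₀ h2 (by rw [← h1, one_mul])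
  obtain ⟨lh, rfl⟩ := exists_hom_of_degree_one (isCharacter_of_isIrr hlam) hlam1
  -- the cyclic group
  let C : Subgroup G := Subgroup.zpowers y
  letI := Fintype.ofFinite C
  letI := Fintype.ofFinite (IrrCharacter C)
  let y' : C := ⟨y, Subgroup.mem_zpowers y⟩
  have hCcomm : ∀ a b : C, a * b = b * a := fun a b => mul_comm' a b
  have hCpow : ∀ x : C, ∃ k : ℤ, x = y' ^ k := by
    rintro ⟨x, k, rfl⟩
    exact ⟨k, Subtype.ext (by simp [y'])⟩
  have hirr : ∀ α : IrrCharacter C, ∃ f : C →* ℂˣ, (α : C → ℂ) = fun x => (f x : ℂ) := fun α =>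
    exists_hom_of_isIrr_of_comm hCcomm α.2
  choose f hf using hirr
  have hKC : Nat.Coprime K (Nat.card C) :=
    Nat.Coprime.coprime_dvd_right (Subgroup.card_subgroup_dvd_card C) hKG
  let A : Finset (IrrCharacter C) := Finset.univ.filter
    (fun α => classInner (fun x : C => χ x) (α : C → ℂ) ≠ 0)
  have hχC := isCharacter_restrict C hχc
  -- size
  have hAcard : A.card ≤ n := by
    have h2 : ∀ α : IrrCharacter C, ∃ m : ℕ, classInner (fun x : C => χ x) (α : C → ℂ) = m :=
      fun α => inner_char_natCast hχC (isCharacter_of_isIrr α.2)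
    choose m hm using h2
    have h3 := congrFun (mem_classFun_expand (isClassFunction_of_isCharacter hχC)) 1
    have h4 : (n : ℂ) = ((∑ α : IrrCharacter C, m α : ℕ) : ℂ) := by
      have h5 : χ ((1 : C) : G) = n := hn
      rw [← h5, h3, Finset.sum_apply]
      push_cast
      apply Finset.sum_congr rfl
      intro α _
      rw [Pi.smul_apply, hm, degree_one_of_comm hCcomm α.2, smul_eq_mul, mul_one]
    have h5 : n = ∑ α : IrrCharacter C, m α := by exact_mod_cast h4
    rw [h5, Finset.card_eq_sum_ones]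
    calc ∑ α ∈ A, 1 ≤ ∑ α ∈ A, m α := by
          apply Finset.sum_le_sum
          intro α hα
          rw [Finset.mem_filter, hm] at hα
          have : m α ≠ 0 := by exact_mod_cast hα.2
          omega
      _ ≤ ∑ α : IrrCharacter C, m α :=
          Finset.sum_le_sum_of_subset (Finset.subset_univ A)
  -- closure
  have hclosed : ∀ α ∈ A, ∃ β ∈ A, ((f β y' : ℂˣ) : ℂ) =
      ((f α y' : ℂˣ) : ℂ) ^ K * (((lh y)⁻¹ : ℂˣ) : ℂ) := by
    intro α hα
    let g : C →* ℂˣ := (f α) ^ K * (lh.comp C.subtype)⁻¹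
    have hg : ∀ x, g x = (f α x) ^ K * (lh x)⁻¹ := fun x => rfl
    let β : IrrCharacter C := ⟨fun x => (g x : ℂ), isIrrCharacter_of_hom g⟩
    have hfβ : ∀ x, ((f β x : ℂˣ) : ℂ) = (g x : ℂ) := by
      intro x
      have := congrFun (hf β) x
      exact this.symm
    refine ⟨β, ?_, ?_⟩
    · rw [Finset.mem_filter] at hα ⊢
      refine ⟨Finset.mem_univ _, ?_⟩
      have h1 : classInner (fun x : C => χ x) (β : C → ℂ) =
          classInner (fun x : C => χ x) (α : C → ℂ) := by
        simp only [classInner]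
        congr 1
        have h2 : ∀ x : C, χ x * conj ((β : C → ℂ) x) =
            χ ((x ^ K : C) : G) * conj ((α : C → ℂ) (x ^ K)) := by
          intro x
          have h3 : (β : C → ℂ) x = ((g x : ℂˣ) : ℂ) := rfl
          have h4 : (α : C → ℂ) (x ^ K) = (((f α x) ^ K : ℂˣ) : ℂ) := by
            rw [hf α, ← map_pow]
          have h5 : χ ((x ^ K : C) : G) = (lh x : ℂ) * χ x := by
            have := congrFun hlamχ (x : G)
            rw [← this]
            rfl
          have h6 : conj ((((lh x)⁻¹ : ℂˣ)) : ℂ) = (lh x : ℂ) := by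
            have h7 := hom_inv_eq_conj lh (x : G)
            rw [map_inv] at h7
            rw [h7, Complex.conj_conj]
          rw [h3, h4, h5, hg, Units.val_mul, map_mul, h6]
          ring
        rw [Finset.sum_congr rfl (fun x _ => h2 x)]
        exact Fintype.sum_equiv
          (Equiv.ofBijective (fun x : C => x ^ K) (H5.BurnsideZero.pow_bijective hKC)) _ _
          (fun x => rfl)
      rw [h1]
      exact hα.2
    · rw [hfβ, hg, Units.val_mul, Units.val_pow_eq_pow_val]
  -- the central element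
  obtain ⟨μ, hμ1, hμ⟩ := central_scalar hχ hy
  have hμ0 : μ ≠ 0 := by
    rintro rfl
    rw [norm_zero] at hμ1
    exact zero_ne_one hμ1
  have hval : ∀ α ∈ A, ((f α y' : ℂˣ) : ℂ) ^ p = μ := by
    intro α hα
    rw [Finset.mem_filter] at hα
    have h1 : classInner (fun x : C => χ x) (α : C → ℂ) =
        μ * conj ((f α (y' ^ p) : ℂˣ) : ℂ) * classInner (fun x : C => χ x) (α : C → ℂ) := by
      simp only [classInner]
      rw [mul_left_comm]
      congr 1
      rw [Finset.mul_sum]
      rw [← Equiv.sum_comp (Equiv.mulLeft (y' ^ p : C))]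
      apply Finset.sum_congr rfl
      intro x _
      have h2 : χ ((Equiv.mulLeft (y' ^ p : C) x : C) : G) = μ * χ x := hμ x
      have h3 : (α : C → ℂ) (Equiv.mulLeft (y' ^ p : C) x) =
          ((f α (y' ^ p) : ℂˣ) : ℂ) * (α : C → ℂ) x := by
        rw [hf α]
        change ((f α (y' ^ p * x) : ℂˣ) : ℂ) = _
        rw [map_mul, Units.val_mul]
      rw [h2, h3, map_mul]
      ring
    have h2 : μ * conj ((f α (y' ^ p) : ℂˣ) : ℂ) = 1 := by
      have h3 : (μ * conj ((f α (y' ^ p) : ℂˣ) : ℂ)) *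
          classInner (fun x : C => χ x) (α : C → ℂ) =
          1 * classInner (fun x : C => χ x) (α : C → ℂ) := by
        rw [one_mul]; exact h1.symm
      exact mul_right_cancel₀ hα.2 h3
    have h3 : conj ((f α (y' ^ p) : ℂˣ) : ℂ) = (((f α (y' ^ p))⁻¹ : ℂˣ) : ℂ) := by
      rw [← hom_inv_eq_conj, map_inv]
    rw [h3, Units.val_inv_eq_inv_val, mul_inv_eq_one₀ (Units.ne_zero _)] at h2
    rw [h2, map_pow, Units.val_pow_eq_pow_val]
  let E : Finset ℂ := A.image (fun α => ((f α y' : ℂˣ) : ℂ))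
  have hE := affine_cycle hp (by omega) hK0 hK hμ0 E (by
    intro x hx
    rw [Finset.mem_image] at hx
    obtain ⟨α, hα, rfl⟩ := hx
    exact hval α hα) (l := (((lh y)⁻¹ : ℂˣ) : ℂ)) (by
    intro x hx
    rw [Finset.mem_image] at hx
    obtain ⟨α, hα, rfl⟩ := hx
    obtain ⟨β, hβ, hβe⟩ := hclosed α hα
    rw [← hβe]
    exact Finset.mem_image_of_mem _ hβ) (lt_of_le_of_lt (Finset.card_image_le.trans hAcard) hnp)
  obtain ⟨α, hα, hαne⟩ := exists_constituent hχC (by
    intro h
    have := congrFun h 1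
    exact irr_one_ne_zero hχ this)
  have hαA : (⟨α, hα⟩ : IrrCharacter C) ∈ A := by
    rw [Finset.mem_filter]
    exact ⟨Finset.mem_univ _, hαne⟩
  obtain ⟨e, he⟩ := H19.Berger.homog_of_unique hχC hα (by
    intro β hβ hβne
    have hβA : (⟨β, hβ⟩ : IrrCharacter C) ∈ A := by
      rw [Finset.mem_filter]
      exact ⟨Finset.mem_univ _, hβne⟩
    have h1 := hE _ (Finset.mem_image_of_mem _ hβA) _ (Finset.mem_image_of_mem _ hαA)
    have h2 : f ⟨β, hβ⟩ y' = f ⟨α, hα⟩ y' := Units.ext h1
    have h3 := hf ⟨β, hβ⟩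
    have h4 := hf ⟨α, hα⟩
    change β = _ at h3
    change α = _ at h4
    rw [h3, h4]
    funext x
    obtain ⟨k, rfl⟩ := hCpow x
    rw [map_zpow, map_zpow, h2])
  have h1 := congrFun he y'
  have h2 := congrFun he 1
  simp only [Pi.smul_apply, smul_eq_mul] at h1 h2
  have h3 : ‖α y'‖ = 1 := by
    have h4 := hf ⟨α, hα⟩
    change α = _ at h4
    rw [h4]
    exact hom_norm_one _ _
  have h4 : α 1 = 1 := degree_one_of_comm hCcomm hα
  have h5 : χ ((y' : C) : G) = χ y := rfl
  have h6 : χ ((1 : C) : G) = χ 1 := rfl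
  rw [← h5, ← h6, h1, h2, norm_mul, norm_mul, h3, h4, norm_one]

end H19.Ito
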