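import Cfsg.Agent.Lib.H19.Ito1
import Cfsg.Agent.Lib.H19.AbTI3
import Cfsg.Agent.Lib.H18.DetChar

/-!
# Groups whose `p`-elements form a subgroup
-/

set_option autoImplicit false
set_option linter.unusedSectionVars false
set_option linter.style.haveILetI false

namespace H19.Ito

open Cfsg H18.CharBasic H18.CharOrtho H18.CharInd H18.CharQuot
open scoped ComplexConjugate

universe u v

/-- the `p`-elements are closed under multiplication -/
def CP (p : ℕ) (G : Type u) [Group G] : Prop :=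
  ∀ x y : G, (∃ k : ℕ, x ^ p ^ k = 1) → (∃ k : ℕ, y ^ p ^ k = 1) → ∃ k : ℕ, (x * y) ^ p ^ k = 1

theorem cp_of_injective {p : ℕ} {A : Type u} {B : Type v} [Group A] [Group B] (f : A →* B)
    (hf : Function.Injective f) (h : CP p B) : CP p A := by
  intro x y ⟨k, hk⟩ ⟨l, hl⟩
  obtain ⟨m, hm⟩ := h (f x) (f y) ⟨k, by rw [← map_pow, hk, map_one]⟩
    ⟨l, by rw [← map_pow, hl, map_one]⟩
  refine ⟨m, hf ?_⟩
  rw [map_pow, map_mul, hm, map_one]

variable {G : Type u} [Group G]

/-- the subgroup of `p`-elements of `K` -/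
def OS (p : ℕ) (K : Subgroup G) (h : CP p K) : Subgroup G where
  carrier := {x | x ∈ K ∧ ∃ k : ℕ, x ^ p ^ k = 1}
  one_mem' := ⟨K.one_mem, 0, by simp⟩
  mul_mem' := by
    rintro x y ⟨hx, k, hk⟩ ⟨hy, l, hl⟩
    refine ⟨K.mul_mem hx hy, ?_⟩
    obtain ⟨m, hm⟩ := h ⟨x, hx⟩ ⟨y, hy⟩ ⟨k, Subtype.ext hk⟩ ⟨l, Subtype.ext hl⟩
    exact ⟨m, congrArg Subtype.val hm⟩
  inv_mem' := by
    rintro x ⟨hx, k, hk⟩
    exact ⟨K.inv_mem hx, k, by rw [inv_pow, hk, inv_one]⟩

theorem mem_OS {p : ℕ} {K : Subgroup G} {h : CP p K} {x : G} :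
    x ∈ OS p K h ↔ x ∈ K ∧ ∃ k : ℕ, x ^ p ^ k = 1 := Iff.rfl

theorem OS_le {p : ℕ} {K : Subgroup G} (h : CP p K) : OS p K h ≤ K := fun _ hx => hx.1

theorem isPGroup_OS {p : ℕ} {K : Subgroup G} (h : CP p K) : IsPGroup p (OS p K h) := by
  rintro ⟨x, hx, k, hk⟩
  exact ⟨k, Subtype.ext hk⟩

theorem le_OS {p : ℕ} {K : Subgroup G} (h : CP p K) {S : Subgroup G} (hS : IsPGroup p S)
    (hSK : S ≤ K) : S ≤ OS p K h := by
  intro x hx
  obtain ⟨k, hk⟩ := hS ⟨x, hx⟩
  exact ⟨hSK hx, k, congrArg Subtype.val hk⟩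

theorem OS_normal {p : ℕ} {K : Subgroup G} (h : CP p K) [hK : K.Normal] : (OS p K h).Normal := by
  constructor
  rintro x ⟨hx, k, hk⟩ g
  refine ⟨hK.conj_mem x hx g, k, ?_⟩
  rw [conj_pow, hk, mul_one, mul_inv_cancel]

theorem sylow_eq_OS {p : ℕ} [Fact p.Prime] {K : Subgroup G} (h : CP p K) (P : Sylow p G)
    (hPK : (P : Subgroup G) ≤ K) : (P : Subgroup G) = OS p K h :=
  (P.is_maximal' (isPGroup_OS h) (le_OS h P.isPGroup' hPK)).symm

theorem normal_of_cp {p : ℕ} [Fact p.Prime] (h : CP p G) (P : Sylow p G) :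
    (P : Subgroup G).Normal := by
  have h1 : CP p (⊤ : Subgroup G) := cp_of_injective (⊤ : Subgroup G).subtype
    (Subgroup.subtype_injective _) h
  rw [sylow_eq_OS h1 P le_top]
  exact OS_normal h1

theorem cp_of_normal {p : ℕ} [Fact p.Prime] (P : Sylow p G) (hP : (P : Subgroup G).Normal) :
    CP p G := by
  have key : ∀ x : G, (∃ k : ℕ, x ^ p ^ k = 1) → x ∈ (P : Subgroup G) := by
    rintro x ⟨k, hk⟩
    have h1 : IsPGroup p (Subgroup.zpowers x) := by
      rintro ⟨y, j, rfl⟩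
      refine ⟨k, Subtype.ext ?_⟩
      change (x ^ j) ^ p ^ k = 1
      rw [← zpow_natCast, ← zpow_mul, mul_comm, zpow_mul, zpow_natCast, hk, one_zpow]
    have h2 : IsPGroup p ((P : Subgroup G) ⊔ Subgroup.zpowers x : Subgroup G) :=
      IsPGroup.to_sup_of_normal_left P.isPGroup' h1
    have h3 := P.is_maximal' h2 le_sup_left
    have h4 : x ∈ (P : Subgroup G) ⊔ Subgroup.zpowers x :=
      (le_sup_right : Subgroup.zpowers x ≤ _) (Subgroup.mem_zpowers x)
    rw [h3] at h4
    exact h4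
  intro x y hx hy
  have h1 : x * y ∈ (P : Subgroup G) := P.toSubgroup.mul_mem (key x hx) (key y hy)
  obtain ⟨k, hk⟩ := P.isPGroup' ⟨x * y, h1⟩
  exact ⟨k, congrArg Subtype.val hk⟩

/-- An element in the kernel of all constituents of a character is in the kernel. -/
theorem ker_of_constituents [Fintype G] {f : G → ℂ} (hf : IsCharacter G f) {g : G}
    (h : ∀ χ : G → ℂ, IsIrrCharacter G χ → classInner f χ ≠ 0 → χ g = χ 1) : f g = f 1 := by
  classical
  letI := Fintype.ofFinite (IrrCharacter G)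
  have h1 := mem_classFun_expand (isClassFunction_of_isCharacter hf)
  rw [h1]
  simp only [Finset.sum_apply, Pi.smul_apply]
  apply Finset.sum_congr rfl
  intro φ _
  by_cases h0 : classInner f (φ : G → ℂ) = 0
  · rw [h0, zero_smul, zero_smul]
  · rw [h φ φ.2 h0]

theorem degree_le [Fintype G] {f : G → ℂ} (hf : IsCharacter G f) {χ : G → ℂ}
    (hχ : IsIrrCharacter G χ) (h : classInner f χ ≠ 0) {n d : ℕ} (hn : f 1 = n) (hd : χ 1 = d) :
    d ≤ n := by
  have h1 := isCharacter_sub_constituent hf hχ h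
  obtain ⟨e, he⟩ := exists_degree h1
  rw [Pi.sub_apply, hn, hd] at he
  have h2 : (n : ℂ) = e + d := by rw [← he]; ring
  have h3 : n = e + d := by exact_mod_cast h2
  omega

/-- a group with a faithful character all of whose constituents are linear is abelian -/
theorem comm_of_linear [Fintype G] {f : G → ℂ} (hf : IsCharacter G f)
    (hfaith : ∀ g, f g = f 1 → g = 1)
    (h : ∀ χ : G → ℂ, IsIrrCharacter G χ → classInner f χ ≠ 0 → χ 1 = 1) (a b : G) :
    a * b = b * a := by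
  have h1 : a * b * a⁻¹ * b⁻¹ = 1 := by
    apply hfaith
    apply ker_of_constituents hf
    intro χ hχ hne
    obtain ⟨l, rfl⟩ := exists_hom_of_degree_one (isCharacter_of_isIrr hχ) (h χ hχ hne)
    have h2 : l (a * b * a⁻¹ * b⁻¹) = l 1 := by
      rw [map_mul, map_mul, map_mul, map_inv, map_inv, map_one, mul_comm (l a) (l b)]
      group
    simp only [h2]
  have h2 : a * b = b * a := by
    have := mul_inv_eq_one.1 h1
    exact mul_inv_eq_iff_eq_mul.1 this
  exact h2

/-- a `p`-group with a faithful character of degree less than `p` is abelian -/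
theorem comm_of_pgroup [Fintype G] {p : ℕ} [hp : Fact p.Prime] (hG : IsPGroup p G) {f : G → ℂ}
    (hf : IsCharacter G f) (hfaith : ∀ g, f g = f 1 → g = 1) {n : ℕ} (hn : f 1 = n) (hnp : n < p)
    (a b : G) : a * b = b * a := by
  apply comm_of_linear hf hfaith
  intro χ hχ hne
  obtain ⟨d, hd⟩ := exists_degree (isCharacter_of_isIrr hχ)
  have h1 := degree_le hf hχ hne hn hd
  have h2 : d ∣ Nat.card G := by
    have := H4.CenterIndex.degree_dvd_index_of_norm hχ (⊥ : Subgroup G) (by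
      intro z hz
      rw [Subgroup.mem_bot] at hz
      rw [hz]) hd
    rwa [Subgroup.index_bot] at this
  obtain ⟨k, hk⟩ := IsPGroup.iff_card.1 hG
  rw [hk] at h2
  obtain ⟨j, -, hj⟩ := (Nat.dvd_prime_pow hp.out).1 h2
  have h3 : j = 0 := by
    by_contra h0
    have : p ≤ p ^ j := Nat.le_self_pow h0 p
    omega
  rw [hd, hj, h3, pow_zero, Nat.cast_one]

end H19.Ito
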