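import Cfsg.Agent.Lib.H1.Solv
import Mathlib.GroupTheory.PGroup
import Mathlib.GroupTheory.GroupAction.ConjAct

/-!
# Core-free maximal subgroups of solvable groups
-/

set_option autoImplicit false
set_option linter.unusedSectionVars false
set_option linter.style.haveILetI false

namespace H19.MaxSub

universe u v

theorem exists_minimal_normal {Q : Type u} [Group Q] [Finite Q] [Nontrivial Q] :
    ∃ M : Subgroup Q, M.Normal ∧ M ≠ ⊥ ∧ ∀ A : Subgroup Q, A.Normal → A ≤ M → A = ⊥ ∨ A = M := by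
  have hwf : WellFounded ((· < ·) : Subgroup Q → Subgroup Q → Prop) := wellFounded_lt
  obtain ⟨M, ⟨hM1, hM2⟩, hM3⟩ := hwf.has_min {N : Subgroup Q | N.Normal ∧ N ≠ ⊥}
    ⟨⊤, inferInstance, top_ne_bot⟩
  refine ⟨M, hM1, hM2, ?_⟩
  intro A hA hAM
  by_cases h : A = ⊥
  · exact Or.inl h
  · right
    by_contra hne
    exact hM3 A ⟨hA, h⟩ (lt_of_le_of_ne hAM hne)

theorem isPGroup_of_pow {Q : Type u} [Group Q] {p : ℕ} {M : Subgroup Q}
    (h : ∀ x ∈ M, x ^ p = 1) : IsPGroup p M := by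
  intro x
  exact ⟨1, Subtype.ext (by rw [pow_one]; exact h x x.2)⟩

/-- An abelian normal `q`-subgroup has nontrivial fixed points under a `q`-subgroup. -/
theorem exists_fixed {Q : Type u} [Group Q] [Finite Q] {q : ℕ} (hq : q.Prime) (M : Subgroup Q)
    [hMn : M.Normal] (hM : IsPGroup q M) (hM1 : M ≠ ⊥) (R : Subgroup Q) (hR : IsPGroup q R) :
    ∃ m ∈ M, m ≠ 1 ∧ ∀ y ∈ R, y * m = m * y := by
  haveI : Fact q.Prime := ⟨hq⟩
  letI : MulAction R M := MulAction.compHom M ((MulAut.conjNormal (H := M)).comp R.subtype)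
  have hact : ∀ (y : R) (m : M), ((y • m : M) : Q) = y * m * (y : Q)⁻¹ := by
    intro y m
    change ((MulAut.conjNormal (y : Q) m : M) : Q) = _
    rw [MulAut.conjNormal_apply]
  have hdvd : q ∣ Nat.card M := by
    obtain ⟨n, hn⟩ := hM.exists_card_eq
    rw [hn]
    apply dvd_pow_self
    rintro rfl
    rw [pow_zero, Subgroup.card_eq_one] at hn
    exact hM1 hn
  have h1 : (1 : M) ∈ MulAction.fixedPoints R M := by
    intro y
    apply Subtype.ext
    rw [hact]; simp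
  obtain ⟨b, hb, hb1⟩ := hR.exists_fixed_point_of_prime_dvd_card_of_fixed_point (α := M) hdvd h1
  refine ⟨b, b.2, fun h => hb1 (Subtype.ext h.symm), ?_⟩
  intro y hy
  have h2 := congrArg Subtype.val (hb ⟨y, hy⟩)
  rw [hact] at h2
  change y * (b : Q) * y⁻¹ = b at h2
  exact mul_inv_eq_iff_eq_mul.1 h2

theorem structure_coreFree {Q : Type u} [Group Q] [Finite Q] (hs : Group.IsSolvable Q)
    (H : Subgroup Q) (hH : IsCoatom H) (hcore : H.normalCore = ⊥) (hne : H ≠ ⊥) :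
    ∃ (M R : Subgroup Q) (q r : ℕ), q.Prime ∧ r.Prime ∧ q ≠ r ∧ M.Normal ∧ IsPGroup q M ∧
      M ≠ ⊥ ∧ (∀ x : Q, ∃ m ∈ M, ∃ h ∈ H, x = m * h) ∧ M ⊓ H = ⊥ ∧ R ≤ H ∧ IsPGroup r R ∧
      (∀ h ∈ H, ∀ y ∈ R, h * y * h⁻¹ ∈ R) ∧ (∃ y ∈ R, ∃ m ∈ M, y * m ≠ m * y) ∧
      Nat.card M = H.index := by
  haveI : Nontrivial Q := by
    obtain ⟨x, hx⟩ := Subgroup.ne_bot_iff_exists_ne_one.1 hne
    exact ⟨x, 1, fun h => hx (Subtype.ext h)⟩
  obtain ⟨M, hMn, hM1, hMmin⟩ := exists_minimal_normal (Q := Q)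
  obtain ⟨hMcomm, q, hq, hMq⟩ := H1.Solv.minimal_normal_elementary hs M hM1 hMmin
  have hMc : ∀ a ∈ M, ∀ b ∈ M, a * b = b * a := by
    intro a ha b hb
    have := hMcomm.is_comm.comm (⟨a, ha⟩ : M) ⟨b, hb⟩
    exact congrArg Subtype.val this
  have hMp := isPGroup_of_pow hMq
  have hMH : ¬ M ≤ H := by
    intro h
    have h1 := (Subgroup.normal_le_normalCore).2 h
    rw [hcore, le_bot_iff] at h1
    exact hM1 h1
  have hsup : M ⊔ H = ⊤ := by
    apply hH.2
    refine lt_of_le_of_ne le_sup_right ?_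
    intro h
    apply hMH
    rw [h]; exact le_sup_left
  have hfac : ∀ x : Q, ∃ m ∈ M, ∃ h ∈ H, x = m * h := by
    intro x
    have hx : x ∈ ((M ⊔ H : Subgroup Q) : Set Q) := by rw [hsup]; trivial
    rw [Subgroup.normal_mul] at hx
    obtain ⟨m, hm, h, hh, hmh⟩ := hx
    exact ⟨m, hm, h, hh, hmh.symm⟩
  -- normality criterion
  have hnormal : ∀ A : Subgroup Q, (∀ h ∈ H, ∀ a ∈ A, h * a * h⁻¹ ∈ A) →
      (∀ m ∈ M, ∀ a ∈ A, m * a * m⁻¹ ∈ A) → A.Normal := by
    intro A h1 h2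
    constructor
    intro a ha x
    obtain ⟨m, hm, h, hh, rfl⟩ := hfac x
    have : m * h * a * (m * h)⁻¹ = m * (h * a * h⁻¹) * m⁻¹ := by group
    rw [this]
    exact h2 m hm _ (h1 h hh a ha)
  have hcoreA : ∀ A : Subgroup Q, A.Normal → A ≤ H → A = ⊥ := by
    intro A hA hAH
    have h1 := (Subgroup.normal_le_normalCore).2 hAH
    rwa [hcore, le_bot_iff] at h1
  have hinf : M ⊓ H = ⊥ := by
    apply hcoreA _ _ inf_le_right
    apply hnormal
    · rintro h hh a ⟨ha1, ha2⟩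
      exact ⟨hMn.conj_mem a ha1 h, H.mul_mem (H.mul_mem hh ha2) (H.inv_mem hh)⟩
    · rintro m hm a ⟨ha1, ha2⟩
      have : m * a * m⁻¹ = a := by rw [hMc m hm a ha1, mul_inv_cancel_right]
      rw [this]
      exact ⟨ha1, ha2⟩
  -- the minimal normal subgroup of `H`
  haveI : Nontrivial H := (Subgroup.nontrivial_iff_ne_bot H).2 hne
  obtain ⟨R', hR'n, hR'1, hR'min⟩ := exists_minimal_normal (Q := H)
  have hsH : Group.IsSolvable H := inferInstance
  obtain ⟨-, r, hr, hR'r⟩ := H1.Solv.minimal_normal_elementary hsH R' hR'1 hR'min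
  set R := R'.map H.subtype with hR
  have hRH : R ≤ H := Subgroup.map_subtype_le R'
  have hRp : IsPGroup r R := by
    apply isPGroup_of_pow
    rintro _ ⟨y, hy, rfl⟩
    have := hR'r y hy
    change (y : Q) ^ r = 1
    exact_mod_cast congrArg Subtype.val this
  have hRn : ∀ h ∈ H, ∀ y ∈ R, h * y * h⁻¹ ∈ R := by
    rintro h hh _ ⟨y, hy, rfl⟩
    exact ⟨⟨h, hh⟩ * y * ⟨h, hh⟩⁻¹, hR'n.conj_mem y hy ⟨h, hh⟩, rfl⟩
  have hRbot : R ≠ ⊥ := by
    intro h0
    apply hR'1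
    rw [hR, Subgroup.map_eq_bot_iff, Subgroup.ker_subtype, le_bot_iff] at h0
    exact h0
  have hnc : ∃ y ∈ R, ∃ m ∈ M, y * m ≠ m * y := by
    by_contra! hcon
    apply hRbot
    have h1 : Subgroup.centralizer (M : Set Q) ⊓ H = ⊥ := by
      apply hcoreA _ _ inf_le_right
      apply hnormal
      · intro h hh a ha
        obtain ⟨ha1, ha2⟩ := Subgroup.mem_inf.1 ha
        refine Subgroup.mem_inf.2 ⟨?_, H.mul_mem (H.mul_mem hh ha2) (H.inv_mem hh)⟩
        rw [Subgroup.mem_centralizer_iff] at ha1 ⊢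
        intro m hm
        have h2 := ha1 (h⁻¹ * m * h) (by
          have := hMn.conj_mem m hm h⁻¹
          rwa [inv_inv] at this)
        calc m * (h * a * h⁻¹) = h * ((h⁻¹ * m * h) * a) * h⁻¹ := by group
          _ = h * (a * (h⁻¹ * m * h)) * h⁻¹ := by rw [h2]
          _ = h * a * h⁻¹ * m := by group
      · intro m hm a ha
        obtain ⟨ha1, ha2⟩ := Subgroup.mem_inf.1 ha
        have : m * a * m⁻¹ = a := by
          rw [Subgroup.mem_centralizer_iff.1 ha1 m hm, mul_inv_cancel_right]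
        rw [this]
        exact ha
    rw [eq_bot_iff, ← h1]
    intro y hy
    refine Subgroup.mem_inf.2 ⟨?_, hRH hy⟩
    rw [Subgroup.mem_centralizer_iff]
    intro m hm
    exact (hcon y hy m hm).symm
  have hqr : q ≠ r := by
    rintro rfl
    obtain ⟨m, hm, hm1, hmf⟩ := exists_fixed hq M hMp hM1 R hRp
    have h1 : (M ⊓ Subgroup.centralizer (R : Set Q)).Normal := by
      apply hnormal
      · intro h hh a ha
        obtain ⟨ha1, ha2⟩ := Subgroup.mem_inf.1 ha
        refine Subgroup.mem_inf.2 ⟨hMn.conj_mem a ha1 h, ?_⟩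
        rw [Subgroup.mem_centralizer_iff] at ha2 ⊢
        intro y hy
        have h2 := ha2 (h⁻¹ * y * h) (by
          have := hRn h⁻¹ (H.inv_mem hh) y hy
          rwa [inv_inv] at this)
        calc y * (h * a * h⁻¹) = h * ((h⁻¹ * y * h) * a) * h⁻¹ := by group
          _ = h * (a * (h⁻¹ * y * h)) * h⁻¹ := by rw [h2]
          _ = h * a * h⁻¹ * y := by group
      · rintro m' hm' a ⟨ha1, ha2⟩
        have : m' * a * m'⁻¹ = a := by rw [hMc m' hm' a ha1, mul_inv_cancel_right]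
        rw [this]
        exact ⟨ha1, ha2⟩
    rcases hMmin _ h1 inf_le_left with h2 | h2
    · have h3 : m ∈ M ⊓ Subgroup.centralizer (R : Set Q) := by
        refine Subgroup.mem_inf.2 ⟨hm, ?_⟩
        rw [Subgroup.mem_centralizer_iff]
        exact hmf
      rw [h2, Subgroup.mem_bot] at h3
      exact hm1 h3
    · obtain ⟨y, hy, m', hm', hne'⟩ := hnc
      rw [← h2] at hm'
      have := Subgroup.mem_centralizer_iff.1 hm'.2 y hy
      exact hne' this
  refine ⟨M, R, q, r, hq, hr, hqr, hMn, hMp, hM1, hfac, hinf, hRH, hRp, hRn, hnc, ?_⟩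
  -- the index
  have h1 : M.index = Nat.card H := by
    have h2 := Subgroup.relIndex_sup_right (H := H) (K := M)
    rw [sup_comm, hsup, Subgroup.relIndex_top_right] at h2
    rw [h2, ← Subgroup.inf_relIndex_right, hinf, Subgroup.relIndex_bot_left]
  have h2 := Subgroup.card_mul_index M
  have h3 := Subgroup.card_mul_index H
  rw [h1, ← h3, mul_comm] at h2
  exact Nat.eq_of_mul_eq_mul_left Nat.card_pos h2

end H19.MaxSub
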