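import Mathlib
import Cfsg.Prelude.Def_Blocks
import Cfsg.Agent.Lib.H20.Loc

set_option autoImplicit false
set_option linter.style.haveILetI false
set_option linter.unusedSimpArgs false
open Cfsg

/-!
# Roots of unity of order prime to `p` modulo `M`
-/

namespace H19.RootsU

variable {p : ℕ} {M : Ideal AlgInt}

/-- Distinct `n`-th roots of unity with `p ∤ n` stay distinct mod `M`. -/
theorem eq_of_sub_mem (hM : IsPModular p M) {n : ℕ} (hn : ¬ p ∣ n) {a b : AlgInt}
    (ha : a ^ n = 1) (hb : b ^ n = 1) (hab : a - b ∈ M) : a = b := by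
  haveI := H20.Loc.pm_isPrime hM
  by_contra hne
  have hn0 : n ≠ 0 := fun h => hn (h ▸ dvd_zero p)
  have h1 : (Polynomial.X ^ n - 1 : Polynomial AlgInt).IsRoot a := by simp [ha]
  obtain ⟨q, hq⟩ := Polynomial.dvd_iff_isRoot.mpr h1
  have h2 : (Polynomial.X ^ n - 1 : Polynomial AlgInt).eval b = 0 := by simp [hb]
  rw [hq, Polynomial.eval_mul] at h2
  have h3 : q.eval b = 0 := by
    rcases mul_eq_zero.mp h2 with h | h
    · exfalso
      simp only [Polynomial.eval_sub, Polynomial.eval_X, Polynomial.eval_C] at h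
      exact hne (sub_eq_zero.mp h).symm
    · exact h
  obtain ⟨g, hg⟩ := Polynomial.dvd_iff_isRoot.mpr (show q.IsRoot b from h3)
  have h4 := congrArg (fun f => (Polynomial.derivative f).eval a) hq
  simp only [Polynomial.derivative_mul, Polynomial.derivative_sub, Polynomial.derivative_X_pow,
    Polynomial.derivative_one, Polynomial.derivative_X, Polynomial.derivative_C, sub_zero,
    one_mul, Polynomial.eval_add, Polynomial.eval_mul, Polynomial.eval_sub, Polynomial.eval_X,
    Polynomial.eval_C, sub_self, zero_mul, add_zero, Polynomial.eval_pow,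
    Polynomial.eval_natCast] at h4
  rw [hg] at h4
  simp only [Polynomial.eval_mul, Polynomial.eval_sub, Polynomial.eval_X, Polynomial.eval_C] at h4
  have h5 : (n : AlgInt) * a ^ (n - 1) ∈ M := by
    have : (n : AlgInt) * a ^ (n - 1) = (a - b) * Polynomial.eval a g := by simpa using h4
    rw [this]
    exact M.mul_mem_right _ hab
  have h6 : (n : AlgInt) ∈ M := by
    have : (n : AlgInt) = ((n : AlgInt) * a ^ (n - 1)) * a := by
      rw [mul_assoc, ← pow_succ, Nat.sub_add_cancel (Nat.pos_of_ne_zero hn0), ha, mul_one]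
    rw [this]
    exact M.mul_mem_right _ h5
  exact hn ((H20.Loc.natCast_mem_iff hM).mp h6)

theorem exists_pow_sub_one_mem (hM : IsPModular p M) {a : AlgInt} (ha : a ∉ M) :
    ∃ n : ℕ, ¬ p ∣ n ∧ a ^ n - 1 ∈ M := by
  haveI := H20.Loc.pm_isPrime hM
  haveI := hM.2.1
  haveI : Fact p.Prime := ⟨hM.1⟩
  letI : Field (AlgInt ⧸ M) := Ideal.Quotient.field M
  haveI : CharP (AlgInt ⧸ M) p := by
    refine ⟨fun n => ?_⟩
    rw [← H20.Loc.natCast_mem_iff hM, ← Ideal.Quotient.eq_zero_iff_mem, map_natCast]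
  letI : Algebra (ZMod p) (AlgInt ⧸ M) := ZMod.algebra _ p
  set x : AlgInt ⧸ M := Ideal.Quotient.mk M a with hx
  have hx0 : x ≠ 0 := by rwa [hx, Ne, Ideal.Quotient.eq_zero_iff_mem]
  have hint : IsIntegral (ZMod p) x := by
    have h1 : IsIntegral ℤ a := by
      have := a.2
      rw [← isIntegral_algebraMap_iff (R := ℤ) (A := AlgInt) (B := ℂ) Subtype.val_injective]
      exact this
    have h2 : IsIntegral ℤ x := h1.map (Ideal.Quotient.mkₐ ℤ M)
    obtain ⟨f, hf, hfx⟩ := h2
    refine ⟨f.map (Int.castRingHom (ZMod p)), hf.map _, ?_⟩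
    rw [Polynomial.eval₂_map]
    have : (algebraMap (ZMod p) (AlgInt ⧸ M)).comp (Int.castRingHom (ZMod p)) =
        algebraMap ℤ (AlgInt ⧸ M) := RingHom.ext_int _ _
    rw [this]
    exact hfx
  have hfin : Module.Finite (ZMod p) (Algebra.adjoin (ZMod p) {x}) :=
    Algebra.finite_adjoin_simple_of_isIntegral hint
  have hfin2 : Finite (Algebra.adjoin (ZMod p) {x}) := Module.finite_of_finite (ZMod p)
  have hmem : ∀ n : ℕ, x ^ n ∈ Algebra.adjoin (ZMod p) {x} := fun n =>
    pow_mem (Algebra.subset_adjoin (Set.mem_singleton x)) n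
  obtain ⟨i, j, hij, hpow⟩ := Finite.exists_ne_map_eq_of_infinite
    (fun n : ℕ => (⟨x ^ n, hmem n⟩ : Algebra.adjoin (ZMod p) {x}))
  have hpow' : x ^ i = x ^ j := congrArg Subtype.val hpow
  have hfo : IsOfFinOrder x := by
    rw [isOfFinOrder_iff_pow_eq_one]
    rcases Nat.lt_or_gt_of_ne hij with h | h
    · refine ⟨j - i, by omega, ?_⟩
      have : x ^ i * x ^ (j - i) = x ^ i * 1 := by
        rw [← pow_add, mul_one, hpow']; congr 1; omega
      exact mul_left_cancel₀ (pow_ne_zero _ hx0) this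
    · refine ⟨i - j, by omega, ?_⟩
      have : x ^ j * x ^ (i - j) = x ^ j * 1 := by
        rw [← pow_add, mul_one, ← hpow']; congr 1; omega
      exact mul_left_cancel₀ (pow_ne_zero _ hx0) this
  refine ⟨orderOf x, ?_, ?_⟩
  · rintro ⟨k, hk⟩
    have hpos := hfo.orderOf_pos
    have h1 : (x ^ k) ^ p = 1 := by
      rw [← pow_mul, mul_comm, ← hk, pow_orderOf_eq_one]
    have h2 : x ^ k = 1 := by
      have h3 : (x ^ k - 1) ^ p = 0 := by
        rw [sub_pow_char, h1, one_pow, sub_self]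
      exact sub_eq_zero.mp (pow_eq_zero_iff hM.1.ne_zero |>.mp h3)
    have h4 := orderOf_dvd_of_pow_eq_one h2
    have hk0 : 0 < k := by
      rcases Nat.eq_zero_or_pos k with h | h
      · rw [h, mul_zero] at hk; omega
      · exact h
    have h5 := Nat.le_of_dvd hk0 h4
    rw [hk] at h5
    have := hM.1.two_le
    nlinarith
  · rw [← Ideal.Quotient.eq_zero_iff_mem, map_sub, map_pow, map_one, ← hx, pow_orderOf_eq_one, sub_self]

theorem exists_root_sub_mem (hM : IsPModular p M) {a : AlgInt} {n : ℕ} (hn : n ≠ 0)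
    (h : a ^ n - 1 ∈ M) : ∃ ε : AlgInt, ε ^ n = 1 ∧ a - ε ∈ M := by
  haveI := H20.Loc.pm_isPrime hM
  classical
  have hζ := Complex.isPrimitiveRoot_exp n hn
  have hint : IsIntegral ℤ (Complex.exp (2 * Real.pi * Complex.I / n)) := hζ.isIntegral (Nat.pos_of_ne_zero hn)
  let ζ : AlgInt := ⟨_, hint⟩
  have hζ' : IsPrimitiveRoot ζ n := by
    apply IsPrimitiveRoot.of_map_of_injective (f := AlgInt.val) _ Subtype.val_injective
    exact hζ
  have hprod := Polynomial.X_pow_sub_one_eq_prod (Nat.pos_of_ne_zero hn) hζ'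
  have heval := congrArg (Polynomial.eval a) hprod
  rw [Polynomial.eval_prod] at heval
  simp only [Polynomial.eval_sub, Polynomial.eval_pow, Polynomial.eval_X, Polynomial.eval_one,
    Polynomial.eval_C] at heval
  rw [heval] at h
  obtain ⟨ε, hε, hmem⟩ := Ideal.IsPrime.prod_mem_iff.mp h
  refine ⟨ε, ?_, hmem⟩
  exact (Polynomial.mem_nthRootsFinset (Nat.pos_of_ne_zero hn) 1).mp hε

end H19.RootsU
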