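import Mathlib

set_option autoImplicit false

/-!
# Sylow subgroups of subgroups, phrased inside the big group
-/

namespace H19.SylowAux

variable {G : Type*} [Group G] [Finite G] {p : ℕ} [Fact p.Prime]

theorem syl_iff (H P : Subgroup G) :
    (∃ S : Sylow p H, (S : Subgroup H).map H.subtype = P) ↔
      P ≤ H ∧ Nat.card P = p ^ (Nat.card H).factorization p := by
  constructor
  · rintro ⟨S, rfl⟩
    refine ⟨Subgroup.map_subtype_le _, ?_⟩
    rw [Subgroup.card_map_of_injective H.subtype_injective]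
    exact S.card_eq_multiplicity
  · rintro ⟨hPH, hcard⟩
    have hc : Nat.card (P.subgroupOf H) = p ^ (Nat.card H).factorization p := by
      rw [← hcard]
      exact Nat.card_congr (Subgroup.subgroupOfEquivOfLe hPH).toEquiv
    refine ⟨Sylow.ofCard (P.subgroupOf H) hc, ?_⟩
    show (P.subgroupOf H).map H.subtype = P
    rw [Subgroup.map_subgroupOf_eq_of_le hPH]

theorem isPGroup_of_card {P : Subgroup G} {n : ℕ} (h : Nat.card P = p ^ n) : IsPGroup p P :=
  IsPGroup.of_card h

/-- Any two Sylow `p`-subgroups of `H` are conjugate by an element of `H`. -/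
theorem syl_conj (H P Q : Subgroup G) (hP : P ≤ H) (hQ : Q ≤ H)
    (hcP : Nat.card P = p ^ (Nat.card H).factorization p)
    (hcQ : Nat.card Q = p ^ (Nat.card H).factorization p) :
    ∃ y ∈ H, P.map (MulAut.conj y).toMonoidHom = Q := by
  obtain ⟨S, hS⟩ := (syl_iff (p := p) H P).mpr ⟨hP, hcP⟩
  obtain ⟨T, hT⟩ := (syl_iff (p := p) H Q).mpr ⟨hQ, hcQ⟩
  obtain ⟨y, hy⟩ := MulAction.exists_smul_eq H S T
  refine ⟨y, y.2, ?_⟩
  rw [← hS, ← hT, ← hy]
  ext z
  simp only [Subgroup.mem_map, Subgroup.coe_subtype, MulEquiv.coe_toMonoidHom]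
  constructor
  · rintro ⟨w, ⟨s, hs, rfl⟩, rfl⟩
    refine ⟨y * s * y⁻¹, ?_, ?_⟩
    · have : (y • S : Sylow p H) = y • S := rfl
      rw [← SetLike.mem_coe, Sylow.coe_subgroup_smul, Subgroup.coe_pointwise_smul]
      exact ⟨s, hs, rfl⟩
    · simp
  · rintro ⟨w, hw, rfl⟩
    rw [← SetLike.mem_coe, Sylow.coe_subgroup_smul, Subgroup.coe_pointwise_smul] at hw
    obtain ⟨s, hs, hsw⟩ := hw
    refine ⟨s, ⟨s, hs, rfl⟩, ?_⟩
    rw [← hsw]
    simp

/-- A `p`-subgroup of `H` is contained in a Sylow `p`-subgroup of `H`. -/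
theorem exists_syl_ge (H P : Subgroup G) (hP : P ≤ H) (hp : IsPGroup p P) :
    ∃ Q : Subgroup G, P ≤ Q ∧ Q ≤ H ∧ Nat.card Q = p ^ (Nat.card H).factorization p := by
  have h1 : IsPGroup p (P.subgroupOf H) := by
    exact hp.of_equiv (Subgroup.subgroupOfEquivOfLe hP).symm
  obtain ⟨S, hS⟩ := h1.exists_le_sylow
  refine ⟨(S : Subgroup H).map H.subtype, ?_, ((syl_iff (p := p) H _).mp ⟨S, rfl⟩).1,
    ((syl_iff (p := p) H _).mp ⟨S, rfl⟩).2⟩
  rw [← Subgroup.map_subgroupOf_eq_of_le hP]
  exact Subgroup.map_mono hS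

/-- The order of a `p`-subgroup of `H` divides the `p`-part of the order of `H`. -/
theorem card_dvd_of_isPGroup (H P : Subgroup G) (hP : P ≤ H) (hp : IsPGroup p P) :
    Nat.card P ∣ p ^ (Nat.card H).factorization p := by
  obtain ⟨Q, hPQ, hQH, hcQ⟩ := exists_syl_ge H P hP hp
  rw [← hcQ]
  exact Subgroup.card_dvd_of_le hPQ

/-- If `P` is a Sylow `p`-subgroup of `H ⊓ N_G(P)` then it is one of `H`. -/
theorem syl_of_syl_normalizer (H P : Subgroup G) (hP : P ≤ H)
    (hc : Nat.card P = p ^ (Nat.card (H ⊓ Subgroup.normalizer (P : Set G) : Subgroup G)).factorization p) :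
    Nat.card P = p ^ (Nat.card H).factorization p := by
  set n := (Nat.card (H ⊓ Subgroup.normalizer (P : Set G) : Subgroup G)).factorization p with hn
  have hpp : p.Prime := Fact.out
  -- p ^ n divides |H|
  have hle : n ≤ (Nat.card H).factorization p := by
    apply (Nat.factorization_le_iff_dvd Nat.card_pos.ne' Nat.card_pos.ne').mpr
    exact Subgroup.card_dvd_of_le inf_le_left
  by_contra hne
  have hlt : n < (Nat.card H).factorization p := by
    rcases Nat.lt_or_ge n ((Nat.card H).factorization p) with h | h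
    · exact h
    · exfalso; apply hne; rw [hc]; congr 1; omega
  have hdvd : p ^ (n + 1) ∣ Nat.card H :=
    (pow_dvd_pow p hlt).trans (Nat.ordProj_dvd _ _)
  have hcP' : Nat.card (P.subgroupOf H) = p ^ n := by
    rw [← hc]
    exact Nat.card_congr (Subgroup.subgroupOfEquivOfLe hP).toEquiv
  obtain ⟨K, hK, hPK⟩ := Sylow.exists_subgroup_card_pow_succ hdvd hcP'
  -- P is normal in K
  have hnormal : ((P.subgroupOf H).subgroupOf K).Normal := by
    apply Subgroup.normal_of_index_eq_minFac_card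
    rw [hK, Nat.Prime.pow_minFac hpp (Nat.succ_ne_zero n)]
    have h1 := Subgroup.card_mul_index ((P.subgroupOf H).subgroupOf K)
    have h2 : Nat.card ((P.subgroupOf H).subgroupOf K) = p ^ n := by
      rw [← hcP']
      exact Nat.card_congr (Subgroup.subgroupOfEquivOfLe hPK).toEquiv
    rw [h2, hK, pow_succ] at h1
    exact Nat.eq_of_mul_eq_mul_left (pow_pos hpp.pos n) h1
  have hKN := Subgroup.le_normalizer_of_normal_subgroupOf (hK := hnormal) hPK
  have hK2 : K.map H.subtype ≤ H ⊓ Subgroup.normalizer (P : Set G) := by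
    refine le_inf (Subgroup.map_subtype_le _) ?_
    rintro _ ⟨k, hk, rfl⟩
    have hk2 := hKN hk
    rw [Subgroup.mem_normalizer_iff] at hk2 ⊢
    intro h
    constructor
    · intro hh
      have := (hk2 ⟨h, hP hh⟩).mp (Subgroup.mem_subgroupOf.mpr hh)
      exact Subgroup.mem_subgroupOf.mp this
    · intro hh
      have hmem : (k : G)⁻¹ * ((k : G) * h * (k : G)⁻¹) * k ∈ H :=
        H.mul_mem (H.mul_mem (H.inv_mem k.2) (hP hh)) k.2
      have hmem2 : h ∈ H := by
        have : (k : G)⁻¹ * ((k : G) * h * (k : G)⁻¹) * k = h := by group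
        rwa [this] at hmem
      have := (hk2 ⟨h, hmem2⟩).mpr (Subgroup.mem_subgroupOf.mpr hh)
      exact Subgroup.mem_subgroupOf.mp this
  have hdvd2 : p ^ (n + 1) ∣ Nat.card (H ⊓ Subgroup.normalizer (P : Set G) : Subgroup G) := by
    rw [← hK, ← Subgroup.card_map_of_injective (K := K) H.subtype_injective]
    exact Subgroup.card_dvd_of_le hK2
  have := (hpp.pow_dvd_iff_le_factorization Nat.card_pos.ne').mp hdvd2
  omega

theorem card_centralizer_conj (g x : G) :
    Nat.card (Subgroup.centralizer ({x * g * x⁻¹} : Set G)) =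
      Nat.card (Subgroup.centralizer ({g} : Set G)) := by
  symm
  apply Nat.card_congr
  refine ⟨fun c => ⟨x * c * x⁻¹, ?_⟩, fun c => ⟨x⁻¹ * c * x, ?_⟩, ?_, ?_⟩
  · have := Subgroup.mem_centralizer_singleton_iff.mp c.2
    rw [Subgroup.mem_centralizer_singleton_iff]
    calc x * ↑c * x⁻¹ * (x * g * x⁻¹) = x * (↑c * g) * x⁻¹ := by group
      _ = x * (g * ↑c) * x⁻¹ := by rw [this]
      _ = _ := by group
  · have := Subgroup.mem_centralizer_singleton_iff.mp c.2
    rw [Subgroup.mem_centralizer_singleton_iff]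
    calc x⁻¹ * ↑c * x * g = x⁻¹ * (↑c * (x * g * x⁻¹)) * x := by group
      _ = x⁻¹ * ((x * g * x⁻¹) * ↑c) * x := by rw [this]
      _ = _ := by group
  · intro c; apply Subtype.ext; simp; group
  · intro c; apply Subtype.ext; simp; group

theorem card_centralizer_of_isConj {g h : G} (hgh : IsConj g h) :
    Nat.card (Subgroup.centralizer ({g} : Set G)) = Nat.card (Subgroup.centralizer ({h} : Set G)) := by
  obtain ⟨x, rfl⟩ := isConj_iff.mp hgh
  exact (card_centralizer_conj g x).symm

theorem map_conj_le_centralizer {P : Subgroup G} {g : G} (x : G)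
    (h : P ≤ Subgroup.centralizer ({g} : Set G)) :
    P.map (MulAut.conj x).toMonoidHom ≤ Subgroup.centralizer ({x * g * x⁻¹} : Set G) := by
  rintro _ ⟨c, hc, rfl⟩
  have := Subgroup.mem_centralizer_singleton_iff.mp (h hc)
  rw [Subgroup.mem_centralizer_singleton_iff]
  show x * c * x⁻¹ * (x * g * x⁻¹) = x * g * x⁻¹ * (x * c * x⁻¹)
  calc x * c * x⁻¹ * (x * g * x⁻¹) = x * (c * g) * x⁻¹ := by group
    _ = x * (g * c) * x⁻¹ := by rw [this]
    _ = _ := by group

theorem card_map_conj (P : Subgroup G) (x : G) :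
    Nat.card (P.map (MulAut.conj x).toMonoidHom) = Nat.card P :=
  Subgroup.card_map_of_injective (MulAut.conj x).injective

theorem le_centralizer_singleton_iff {P : Subgroup G} {g : G} :
    P ≤ Subgroup.centralizer ({g} : Set G) ↔ g ∈ Subgroup.centralizer (P : Set G) := by
  rw [Subgroup.mem_centralizer_iff]
  constructor
  · intro h a ha
    exact Subgroup.mem_centralizer_singleton_iff.mp (h ha)
  · intro h a ha
    exact Subgroup.mem_centralizer_singleton_iff.mpr (h a ha)

end H19.SylowAux
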